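import Mathlib
import Cfsg.Agent.Perm.Regular

/-!
An element of order `p ^ r` in an affine group of degree `p ^ m` satisfies `p ^ (r - 1) ≤ m`.
-/

namespace Cfsg.Agent.RecogA

open MulAction

set_option linter.style.haveILetI false

/-- A nilpotent endomorphism of an abelian group of order `p ^ m` has vanishing `m`-th power. -/
theorem pow_eq_zero_of_isNilpotent_end {V : Type*} [AddCommGroup V] [Finite V] {p m : ℕ}
    (hp : p.Prime) (hcard : Nat.card V = p ^ m) {D : AddMonoid.End V} (hD : IsNilpotent D) :
    D ^ m = 0 := by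
  obtain ⟨k, hk⟩ := hD
  have hrange : ∀ i, (D ^ (i + 1) : AddMonoid.End V).range ≤ (D ^ i : AddMonoid.End V).range := by
    intro i
    rintro _ ⟨x, rfl⟩
    exact ⟨D x, by rw [pow_succ]; rfl⟩
  have hstep : ∀ i, (D ^ i : AddMonoid.End V) ≠ 0 →
      Nat.card (D ^ (i + 1) : AddMonoid.End V).range * p ≤
        Nat.card (D ^ i : AddMonoid.End V).range := by
    intro i hi
    have hlt : (D ^ (i + 1) : AddMonoid.End V).range < (D ^ i : AddMonoid.End V).range := by
      refine (hrange i).lt_of_ne fun h => hi ?_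
      have hall : ∀ j, i ≤ j → (D ^ j : AddMonoid.End V).range = (D ^ i : AddMonoid.End V).range := by
        intro j hj
        induction j, hj using Nat.le_induction with
        | base => rfl
        | succ j hij ih =>
          refine le_antisymm ?_ ?_
          · exact (hrange j).trans ih.le
          · intro y hy
            rw [← h] at hy
            obtain ⟨x, rfl⟩ := hy
            have hx : (D ^ i : AddMonoid.End V) x ∈ (D ^ j : AddMonoid.End V).range := by
              rw [ih]; exact ⟨x, rfl⟩
            obtain ⟨z, hz⟩ := hx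
            refine ⟨z, ?_⟩
            rw [pow_succ' D j, pow_succ' D i]
            exact congrArg D hz
      have h0 := hall (i + k) (by omega)
      rw [pow_add, hk, mul_zero] at h0
      refine AddMonoidHom.ext fun x => ?_
      have hx : (D ^ i : AddMonoid.End V) x ∈ (0 : AddMonoid.End V).range := by
        rw [h0]; exact ⟨x, rfl⟩
      obtain ⟨z, hz⟩ := hx
      exact hz.symm
    have hdvd := AddSubgroup.card_dvd_of_le hlt.le
    have hne : Nat.card (D ^ (i + 1) : AddMonoid.End V).range ≠
        Nat.card (D ^ i : AddMonoid.End V).range := fun h =>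
      hlt.ne (AddSubgroup.eq_of_le_of_card_ge hlt.le h.ge)
    have hd : Nat.card (D ^ i : AddMonoid.End V).range ∣ p ^ m := by
      rw [← hcard]; exact AddSubgroup.card_addSubgroup_dvd_card _
    obtain ⟨a, -, ha⟩ := (Nat.dvd_prime_pow hp).1 hd
    rw [ha] at hdvd hne ⊢
    obtain ⟨b, hb, hb'⟩ := (Nat.dvd_prime_pow hp).1 hdvd
    rw [hb'] at hne ⊢
    rw [← pow_succ]
    refine Nat.pow_le_pow_right hp.pos ?_
    by_contra hc
    exact hne (by rw [show b = a by omega])
  have hbound : ∀ i, (D ^ i : AddMonoid.End V) ≠ 0 →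
      Nat.card (D ^ i : AddMonoid.End V).range * p ^ i ≤ p ^ m := by
    intro i
    induction i with
    | zero =>
      intro _
      rw [pow_zero (M := ℕ), mul_one, ← hcard]
      exact Nat.le_of_dvd Nat.card_pos (AddSubgroup.card_addSubgroup_dvd_card _)
    | succ i ih =>
      intro h
      have hi : (D ^ i : AddMonoid.End V) ≠ 0 := fun h0 => h (by rw [pow_succ, h0, zero_mul])
      calc Nat.card (D ^ (i + 1) : AddMonoid.End V).range * p ^ (i + 1)
          = Nat.card (D ^ (i + 1) : AddMonoid.End V).range * p * p ^ i := by ring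
        _ ≤ Nat.card (D ^ i : AddMonoid.End V).range * p ^ i := Nat.mul_le_mul_right _ (hstep i hi)
        _ ≤ p ^ m := ih hi
  by_contra hm
  have h1 := hbound m hm
  have h2 : Nat.card (D ^ m : AddMonoid.End V).range ≤ 1 := by
    by_contra h3
    have := Nat.mul_le_mul_right (p ^ m) (Nat.lt_of_not_le h3)
    have hpos := pow_pos hp.pos m
    nlinarith
  apply hm
  refine AddMonoidHom.ext fun x => ?_
  haveI : Subsingleton (D ^ m : AddMonoid.End V).range :=
    Finite.card_le_one_iff_subsingleton.1 h2
  exact congrArg Subtype.val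
    (Subsingleton.elim (⟨_, x, rfl⟩ : (D ^ m : AddMonoid.End V).range) 0)

theorem pow_sub_one_le_of_orderOf {G : Type*} [Group G] [Finite G] {Ω : Type*} [Fintype Ω]
    [MulAction G Ω] [FaithfulSMul G Ω] {p m : ℕ} (hp : p.Prime) (hcard : Fintype.card Ω = p ^ m)
    (N : Subgroup G) [N.Normal] (hNc : IsMulCommutative N) (hNp : ∀ n ∈ N, n ^ p = 1)
    (hNtr : IsPretransitive N Ω) (hNreg : ∀ ω : Ω, stabilizer N ω = ⊥)
    {g : G} {r : ℕ} (hr : 1 ≤ r) (hg : orderOf g = p ^ r) : p ^ (r - 1) ≤ m := by
  classical
  by_contra hlt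
  push Not at hlt
  obtain ⟨α⟩ : Nonempty Ω := Fintype.card_pos_iff.1 (hcard ▸ pow_pos hp.pos m)
  haveI := hNtr
  letI : CommGroup N := { (inferInstance : Group N) with mul_comm := hNc.is_comm.comm }
  have hinj := (Cfsg.Agent.PermLib.smul_bijective_of_regular (hNreg α)).1
  have hNcard : Nat.card (Additive N) = p ^ m := by
    rw [Nat.card_congr Additive.toMul,
      Cfsg.Agent.PermLib.card_eq_of_regular (hNreg α), Nat.card_eq_fintype_card, hcard]
  haveI : Finite (Additive N) := Finite.of_equiv N Additive.ofMul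
  -- the translation part of `g`
  obtain ⟨n, hn⟩ := exists_smul_eq N α (g • α)
  have hn' : (n : G) • α = g • α := hn
  let C : AddMonoid.End (Additive N) := MonoidHom.toAdditive (MulAut.conjNormal g : MulAut N).toMonoidHom
  have hC : ∀ x : N, C (Additive.ofMul x) = Additive.ofMul (MulAut.conjNormal g x) := fun _ => rfl
  have hCpow : ∀ (k : ℕ) (x : N),
      (C ^ k) (Additive.ofMul x) = Additive.ofMul (MulAut.conjNormal (g ^ k) x) := by
    intro k
    induction k with
    | zero => intro x; simp
    | succ k ih =>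
      intro x
      rw [pow_succ, pow_succ g, map_mul]
      show (C ^ k) (C (Additive.ofMul x)) = _
      rw [hC, ih]
      rfl
  have hpnsmul : ∀ x : Additive N, p • x = 0 := fun x => by
    show Additive.ofMul ((Additive.toMul x) ^ p) = 0
    rw [show (Additive.toMul x) ^ p = 1 from
      Subtype.ext (by simpa using hNp _ (Additive.toMul x).2)]
    rfl
  let sc : ZMod p →+ Additive N := ZMod.lift p ⟨zmultiplesHom (Additive N) (Additive.ofMul n), by
    simpa using hpnsmul (Additive.ofMul n)⟩
  have hsc1 : sc 1 = Additive.ofMul n := by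
    have h := ZMod.lift_coe p ⟨zmultiplesHom (Additive N) (Additive.ofMul n),
      by simpa using hpnsmul (Additive.ofMul n)⟩ 1
    simpa [sc] using h
  let A : AddMonoid.End (Additive N × ZMod p) :=
    AddMonoidHom.prod (C.comp (AddMonoidHom.fst _ _) + sc.comp (AddMonoidHom.snd _ _))
      (AddMonoidHom.snd _ _)
  let B : AddMonoid.End (Additive N × ZMod p) := A - 1
  have hA : ∀ v c, A (v, c) = (C v + sc c, c) := fun v c => rfl
  let D : AddMonoid.End (Additive N) := C - 1
  have hB : ∀ v c, B (v, c) = (D v + sc c, 0) := by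
    intro v c
    show A (v, c) - (v, c) = _
    rw [hA]
    show (C v + sc c - v, c - c) = _
    rw [sub_self]
    show _ = (C v - v + sc c, (0 : ZMod p))
    rw [sub_add_eq_add_sub]
  -- `D` is nilpotent, of exponent at most `m`
  have hDm : D ^ m = 0 := by
    refine pow_eq_zero_of_isNilpotent_end hp hNcard ⟨p ^ r, ?_⟩
    obtain ⟨X, hX⟩ := (Commute.one_right D).exists_add_pow_prime_pow_eq hp r
    have hp0 : (p : AddMonoid.End (Additive N)) = 0 := AddMonoidHom.ext fun x => hpnsmul x
    have hCr : C ^ p ^ r = 1 := AddMonoidHom.ext fun x => by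
      show (C ^ p ^ r) (Additive.ofMul (Additive.toMul x)) = x
      rw [hCpow, ← hg, pow_orderOf_eq_one, map_one]
      rfl
    rw [show D + 1 = C from sub_add_cancel C 1, hCr, one_pow, hp0, zero_mul, zero_mul, zero_mul,
      add_zero] at hX
    exact left_eq_add.1 (hX.trans (add_comm _ _))
  have hBm : B ^ (m + 1) = 0 := by
    have hBk : ∀ k, ∀ v c, (B ^ (k + 1)) (v, c) = ((D ^ k) (D v + sc c), 0) := by
      intro k
      induction k with
      | zero =>
        intro v c
        rw [pow_one, hB, pow_zero]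
        rfl
      | succ k ih =>
        intro v c
        rw [pow_succ]
        show (B ^ (k + 1)) (B (v, c)) = _
        rw [hB, ih, map_zero, add_zero, pow_succ D k]
        rfl
    refine AddMonoidHom.ext fun vc => ?_
    exact (hBk m vc.1 vc.2).trans (by rw [hDm]; rfl)
  set q := p ^ (r - 1) with hq
  have hAq : A ^ q = 1 := by
    obtain ⟨X, hX⟩ := (Commute.one_right B).exists_add_pow_prime_pow_eq hp (r - 1)
    have hp0 : (p : AddMonoid.End (Additive N × ZMod p)) = 0 := AddMonoidHom.ext fun x => by
      show p • x = 0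
      exact Prod.ext (hpnsmul x.1) (by simp)
    rw [show B + 1 = A from sub_add_cancel A 1, one_pow, hp0, zero_mul, zero_mul, zero_mul,
      add_zero, ← hq] at hX
    rw [hX, pow_eq_zero_of_le (show m + 1 ≤ q by omega) hBm, zero_add]
  have hAk0 : ∀ k v, (A ^ k) (v, 0) = ((C ^ k) v, 0) := by
    intro k
    induction k with
    | zero => intro v; rfl
    | succ k ih =>
      intro v
      rw [pow_succ, pow_succ C]
      show (A ^ k) (A (v, 0)) = _
      rw [hA, map_zero, add_zero, ih]
      rfl
  have hAk1 : ∀ k, ∃ w : N, (A ^ k) (0, 1) = (Additive.ofMul w, 1) ∧ (w : G) • α = (g ^ k) • α := by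
    intro k
    induction k with
    | zero => exact ⟨1, rfl, by simp⟩
    | succ k ih =>
      obtain ⟨w, hw, hwα⟩ := ih
      refine ⟨MulAut.conjNormal g w * n, ?_, ?_⟩
      · rw [pow_succ']
        show A ((A ^ k) (0, 1)) = _
        rw [hw, hA, hsc1, hC]
        rfl
      · rw [Subgroup.coe_mul, MulAut.conjNormal_apply, mul_smul, hn', pow_succ', mul_smul g,
          ← hwα, ← mul_smul, ← mul_smul]
        congr 1
        group
  obtain ⟨w, hw, hwα⟩ := hAk1 q
  rw [hAq] at hw
  have hw1 : w = 1 := by simpa using (congrArg Prod.fst hw).symm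
  rw [hw1, Subgroup.coe_one, one_smul] at hwα
  have hgq : g ^ q = 1 := by
    refine FaithfulSMul.eq_of_smul_eq_smul (α := Ω) fun b => ?_
    obtain ⟨x, rfl⟩ := exists_smul_eq N α b
    have hx := congrArg Prod.fst (hAk0 q (Additive.ofMul x))
    rw [hAq, hCpow] at hx
    have hx' : ((MulAut.conjNormal (g ^ q) x : N) : G) = x :=
      congrArg Subtype.val (Additive.ofMul.injective hx).symm
    rw [MulAut.conjNormal_apply, mul_inv_eq_iff_eq_mul] at hx'
    show (g ^ q) • (x : G) • α = (1 : G) • (x : G) • α
    rw [one_smul, smul_smul, hx', mul_smul, ← hwα]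
  have h1 := orderOf_dvd_of_pow_eq_one hgq
  rw [hg, hq] at h1
  have h2 := (Nat.pow_dvd_pow_iff_le_right hp.one_lt).1 h1
  omega

theorem small_of_pow_pred_le {p m : ℕ} (hp : p.Prime) (h : p ^ (m - 1) ≤ m) :
    m ≤ 2 ∧ (2 < p → m ≤ 1) := by
  have h2 : 2 ^ (m - 1) ≤ m := (Nat.pow_le_pow_left hp.two_le _).trans h
  have hm2 : m ≤ 2 := by
    by_contra hc
    have hall : ∀ k, 3 ≤ k → k < 2 ^ (k - 1) := by
      intro k hk
      induction k, hk using Nat.le_induction with
      | base => norm_num
      | succ k hk ih =>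
        have h2k : 2 ^ (k + 1 - 1) = 2 ^ (k - 1) * 2 := by
          rw [← pow_succ]; congr 1; omega
        omega
    have := hall m (by omega)
    omega
  refine ⟨hm2, fun hp2 => ?_⟩
  by_contra hc
  rw [show m = 2 by omega] at h
  norm_num at h
  omega

end Cfsg.Agent.RecogA
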