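import Cfsg.Agent.Lib.Element

/-!
A non-abelian simple group `T` cannot be acted on by a group `H`, containing the inner
automorphisms as a normal subgroup and commuting with powers, in such a way that every stabilizer
of a non-identity element is maximal: all element centralizers would be non-abelian Sylow
subgroups, which is impossible by counting.
-/

namespace Cfsg.Agent.RecogA

open MulAction

set_option linter.style.haveILetI false

theorem sum_inv_sq_le (N : ℕ) (hN : 2 ≤ N) :
    ∑ m ∈ Finset.Icc 2 N, (1 : ℚ) / (m : ℚ) ^ 2 ≤ 3 / 4 - 1 / N := by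
  induction N, hN using Nat.le_induction with
  | base => norm_num
  | succ n hn ih =>
    rw [Finset.sum_Icc_succ_top (by omega : 2 ≤ n + 1)]
    have hn0 : (0 : ℚ) < n := by exact_mod_cast (show 0 < n by omega)
    have key : (1 : ℚ) / ((n + 1 : ℕ) : ℚ) ^ 2 ≤ 1 / n - 1 / ((n + 1 : ℕ) : ℚ) := by
      push_cast
      rw [div_sub_div _ _ hn0.ne' (by positivity : ((n : ℚ) + 1) ≠ 0)]
      rw [div_le_div_iff₀ (by positivity) (by positivity)]
      nlinarith
    linarith

theorem sum_inv_sq_subset_le (s : Finset ℕ) (hs : ∀ m ∈ s, 2 ≤ m) :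
    ∑ m ∈ s, (1 : ℚ) / (m : ℚ) ^ 2 ≤ 3 / 4 := by
  refine le_trans ?_ ((sum_inv_sq_le (s.sup id + 2) (by omega)).trans ?_)
  · refine Finset.sum_le_sum_of_subset_of_nonneg (fun m hm => ?_) (fun _ _ _ => by positivity)
    exact Finset.mem_Icc.2 ⟨hs m hm, (Finset.le_sup (f := id) hm).trans (Nat.le_add_right _ 2)⟩
  · have h : (0 : ℚ) ≤ 1 / ((s.sup id + 2 : ℕ) : ℚ) := by positivity
    linarith

theorem center_card_mul_sq_le {p : ℕ} [hp : Fact p.Prime] {S : Type*} [Group S] [Finite S]
    (hS : IsPGroup p S) (hna : ¬ IsMulCommutative S) :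
    Nat.card (Subgroup.center S) * p ^ 2 ≤ Nat.card S := by
  obtain ⟨k, hk⟩ := IsPGroup.iff_card.1 (hS.to_quotient (Subgroup.center S))
  have hcard : Nat.card (Subgroup.center S) * p ^ k = Nat.card S := by
    rw [← hk, mul_comm]
    exact (Subgroup.card_eq_card_quotient_mul_card_subgroup (Subgroup.center S)).symm
  rw [← hcard]
  refine Nat.mul_le_mul_left _ (Nat.pow_le_pow_right hp.out.pos ?_)
  by_contra hlt
  haveI : IsCyclic (S ⧸ Subgroup.center S) := by
    rcases (by omega : k = 0 ∨ k = 1) with rfl | rfl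
    · haveI : Subsingleton (S ⧸ Subgroup.center S) :=
        (Nat.card_eq_one_iff_unique.1 (by rw [hk, pow_zero])).1
      infer_instance
    · exact isCyclic_of_prime_card (p := p) (by rw [hk, pow_one])
  exact hna ((QuotientGroup.mk' (Subgroup.center S)).isMulCommutative_of_isCyclic_of_ker_le_center
    (by rw [QuotientGroup.ker_mk']))

section

variable {T : Type*} [Group T] [Finite T] [IsSimpleGroup T]

theorem center_eq_bot_of_simple (hT : ¬ IsMulCommutative T) : Subgroup.center T = ⊥ := by
  refine ((inferInstance : (Subgroup.center T).Normal).eq_bot_or_eq_top).resolve_right fun h => hT ?_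
  exact ⟨⟨fun a b => (Subgroup.mem_center_iff.1 (h ▸ Subgroup.mem_top a) b).symm⟩⟩

theorem centralizer_singleton_ne_top (hT : ¬ IsMulCommutative T) {x : T} (hx : x ≠ 1) :
    Subgroup.centralizer {x} ≠ ⊤ := by
  intro h
  apply hx
  have hc : x ∈ Subgroup.center T := Subgroup.mem_center_iff.2 fun g =>
    (Subgroup.mem_centralizer_iff.1 (h ▸ Subgroup.mem_top g : g ∈ Subgroup.centralizer {x}) x rfl).symm
  rwa [center_eq_bot_of_simple hT, Subgroup.mem_bot] at hc

/-- A non-abelian simple group has no Sylow subgroup with abelian self-normalizing overgroup. -/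
theorem not_normalizer_le_centralizer (hT : ¬ IsMulCommutative T) {p : ℕ} [Fact p.Prime]
    (S : Sylow p T) (hne : (S : Subgroup T) ≠ ⊥) :
    ¬ Subgroup.normalizer ((S : Subgroup T) : Set T) ≤ Subgroup.centralizer (S : Set T) := by
  intro h
  have hc := MonoidHom.ker_transferSylow_isComplement' S h
  rcases (inferInstance : (MonoidHom.transferSylow S h).ker.Normal).eq_bot_or_eq_top with e | e
  · rw [e, Subgroup.isComplement'_bot_left] at hc
    apply hT
    refine ⟨⟨fun a b => ?_⟩⟩
    have ha : a ∈ (S : Subgroup T) := hc ▸ Subgroup.mem_top a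
    have hb : b ∈ (S : Subgroup T) := hc ▸ Subgroup.mem_top b
    exact (Subgroup.mem_centralizer_iff.1 (h (Subgroup.le_normalizer ha)) b hb).symm
  · rw [e, Subgroup.isComplement'_top_left] at hc
    exact hne hc

theorem false_of_maximal_centralizers (hT : ¬ IsMulCommutative T) {H : Type*} [Group H]
    [MulAction H T] (c : T →* H) (hc : ∀ t x : T, c t • x = t * x * t⁻¹)
    (hnorm : c.range.Normal) (hpow : ∀ (h : H) (x : T) (j : ℕ), h • x ^ j = (h • x) ^ j)
    (hmax : ∀ x : T, x ≠ 1 → IsCoatom (stabilizer H x)) : False := by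
  classical
  let cen : T → Subgroup T := fun x => Subgroup.centralizer {x}
  have mem_cen : ∀ {x w : T}, w ∈ cen x ↔ Commute x w := by
    intro x w
    rw [Subgroup.mem_centralizer_iff]
    exact ⟨fun h => h x rfl, fun h y hy => by rw [Set.mem_singleton_iff.1 hy]; exact h⟩
  have self_mem : ∀ x : T, x ∈ cen x := fun x => mem_cen.2 (Commute.refl x)
  have hstab : ∀ x t : T, c t ∈ stabilizer H x ↔ t ∈ cen x := by
    intro x t
    rw [mem_stabilizer_iff, hc, mul_inv_eq_iff_eq_mul, mem_cen]
    exact ⟨fun h => h.symm, fun h => h.eq.symm⟩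
  have hcentop : ∀ {x : T}, x ≠ 1 → cen x ≠ ⊤ := fun hx => centralizer_singleton_ne_top hT hx
  -- powers have the same centralizer
  have hpowcen : ∀ (x : T) (j : ℕ), x ^ j ≠ 1 → cen (x ^ j) = cen x := by
    intro x j hj
    have hx : x ≠ 1 := fun h => hj (by rw [h, one_pow])
    have hle : stabilizer H x ≤ stabilizer H (x ^ j) := fun h hh => by
      rw [mem_stabilizer_iff, hpow, mem_stabilizer_iff.1 hh]
    have hne : stabilizer H (x ^ j) ≠ ⊤ := fun h => hcentop hj <| eq_top_iff.2 fun t _ =>
      (hstab _ t).1 (h ▸ Subgroup.mem_top (c t))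
    have heq := ((hmax x hx).le_iff.1 hle).resolve_left hne
    ext t
    rw [← hstab, heq, hstab]
  -- every centralizer is the centralizer of an element of prime order
  have hprime : ∀ x : T, x ≠ 1 → ∀ q : ℕ, q.Prime → q ∣ orderOf x →
      ∃ j : ℕ, orderOf (x ^ j) = q ∧ cen (x ^ j) = cen x := by
    intro x hx q hq hdvd
    have h1 : orderOf (x ^ (orderOf x / q)) = q := by
      rw [orderOf_pow, Nat.gcd_eq_right (Nat.div_dvd_of_dvd hdvd),
        Nat.div_div_self hdvd (orderOf_pos x).ne']
    refine ⟨_, h1, hpowcen x _ fun h => ?_⟩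
    rw [h, orderOf_one] at h1
    exact hq.ne_one h1.symm
  -- commuting elements of coprime order have the same centralizer
  have hcop : ∀ y z : T, y ≠ 1 → z ≠ 1 → Commute y z → (orderOf y).Coprime (orderOf z) →
      cen y = cen z := by
    have key : ∀ y z : T, y ≠ 1 → Commute y z → (orderOf y).Coprime (orderOf z) →
        cen (y * z) = cen y := by
      intro y z hy hcomm hco
      have h1 : (y * z) ^ orderOf z = y ^ orderOf z := by
        rw [hcomm.mul_pow, pow_orderOf_eq_one, mul_one]
      have h2 : y ^ orderOf z ≠ 1 := fun h => hy <| orderOf_eq_one_iff.1 <|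
        Nat.eq_one_of_dvd_coprimes hco dvd_rfl (orderOf_dvd_of_pow_eq_one h)
      rw [← hpowcen (y * z) (orderOf z) (h1 ▸ h2), h1, hpowcen y _ h2]
    intro y z hy hz hcomm hco
    rw [← key y z hy hcomm hco, hcomm.eq, key z y hz hcomm.symm hco.symm]
  -- centralizers are self-normalizing
  have hself : ∀ x : T, x ≠ 1 → ∀ n : T, (∀ w, w ∈ cen x ↔ n * w * n⁻¹ ∈ cen x) → n ∈ cen x := by
    intro x hx n hn
    set D : Subgroup H := stabilizer H x ⊓ c.range with hD
    have hle : stabilizer H x ≤ Subgroup.normalizer (D : Set H) := by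
      intro h (hh : h ∈ stabilizer H x)
      rw [Subgroup.mem_normalizer_iff]
      intro d
      constructor
      · rintro ⟨h1, h2⟩
        exact ⟨show h * d * h⁻¹ ∈ stabilizer H x from
          mul_mem (mul_mem hh (show d ∈ stabilizer H x from h1)) (inv_mem hh),
          hnorm.conj_mem d h2 h⟩
      · rintro ⟨h1, h2⟩
        refine ⟨?_, ?_⟩
        · have h1' : h * d * h⁻¹ ∈ stabilizer H x := h1
          have := mul_mem (mul_mem (inv_mem hh) h1') hh
          show d ∈ stabilizer H x
          simpa [mul_assoc] using this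
        · simpa [mul_assoc] using hnorm.conj_mem _ h2 h⁻¹
    have hne : Subgroup.normalizer (D : Set H) ≠ ⊤ := by
      intro htop
      haveI : (cen x).Normal := by
        refine ⟨fun w hw g => ?_⟩
        have hg : c g ∈ Subgroup.normalizer (D : Set H) := htop ▸ Subgroup.mem_top _
        have := (Subgroup.mem_normalizer_iff.1 hg (c w)).1 ⟨(hstab x w).2 hw, w, rfl⟩
        rw [← map_inv, ← map_mul, ← map_mul] at this
        exact (hstab x _).1 this.1
      rcases ‹(cen x).Normal›.eq_bot_or_eq_top with e | e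
      · exact hx (Subgroup.mem_bot.1 (e ▸ self_mem x))
      · exact hcentop hx e
    have heq := ((hmax x hx).le_iff.1 hle).resolve_left hne
    have hnD : c n ∈ Subgroup.normalizer (D : Set H) := by
      rw [Subgroup.mem_normalizer_iff]
      intro d
      constructor
      · rintro ⟨h1, w, rfl⟩
        rw [← map_inv, ← map_mul, ← map_mul]
        exact ⟨(hstab x _).2 ((hn w).1 ((hstab x w).1 h1)), _, rfl⟩
      · rintro ⟨h1, h2⟩
        obtain ⟨w, rfl⟩ : d ∈ c.range := by
          simpa [mul_assoc] using hnorm.conj_mem _ h2 (c n)⁻¹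
        rw [← map_inv, ← map_mul, ← map_mul] at h1
        exact ⟨(hstab x w).2 ((hn w).2 ((hstab x _).1 h1)), w, rfl⟩
    rw [heq] at hnD
    exact (hstab x n).1 hnD
  have hself' : ∀ x : T, x ≠ 1 → Subgroup.normalizer ((cen x : Subgroup T) : Set T) ≤ cen x :=
    fun x hx n hn => hself x hx n (Subgroup.mem_normalizer_iff.1 hn)
  -- a centralizer containing elements of two prime orders is impossible
  have hone : ∀ (p : ℕ) (x y : T), p.Prime → orderOf x = p → y ∈ cen x → y ≠ 1 →
      ¬ p ∣ orderOf y → False := by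
    intro p x y hp hxp hy hy1 hpy
    have hx : x ≠ 1 := fun h => hp.ne_one (by rw [← hxp, h, orderOf_one])
    obtain ⟨q, hq, hqdvd⟩ := Nat.exists_prime_and_dvd (fun h => hy1 (orderOf_eq_one_iff.1 h))
    have hqp : q ≠ p := fun h => hpy (h ▸ hqdvd)
    obtain ⟨j, hjq, hjcen⟩ := hprime y hy1 q hq hqdvd
    set z := y ^ j with hz
    have hzC : z ∈ cen x := pow_mem hy j
    have hz1 : z ≠ 1 := fun h => hq.ne_one (by rw [← hjq, h, orderOf_one])
    have hzx : cen z = cen x := hcop z x hz1 hx (mem_cen.1 hzC).symm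
      (by rw [hjq, hxp]; exact (Nat.coprime_primes hq hp).2 hqp)
    -- elements of prime power order of the centralizer are central in it
    have hpp : ∀ (w : T) (r k : ℕ), r.Prime → w ∈ cen x → orderOf w = r ^ k → w ≠ 1 →
        cen w = cen x := by
      intro w r k hr hw hwo hw1
      rcases eq_or_ne r p with h | h
      · rw [hcop w z hw1 hz1 (mem_cen.1 (hzx.symm ▸ hw : w ∈ cen z)).symm ?_, hzx]
        rw [hwo, hjq, h]
        exact Nat.Coprime.pow_left k ((Nat.coprime_primes hp hq).2 hqp.symm)
      · refine hcop w x hw1 hx (mem_cen.1 hw).symm ?_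
        rw [hwo, hxp]
        exact Nat.Coprime.pow_left k ((Nat.coprime_primes hr hp).2 h)
    -- so the centralizer is abelian
    have hab : ∀ u ∈ cen x, ∀ v ∈ cen x, Commute u v := by
      intro u hu v hv
      suffices h : (⟨u, hu⟩ : cen x) ∈ Subgroup.center (cen x) by
        exact congrArg Subtype.val (Subgroup.mem_center_iff.1 h ⟨v, hv⟩).symm
      have htop : Subgroup.center (cen x) = ⊤ := by
        rw [eq_top_iff, ← Element.closure_primePow_orderOf, Subgroup.closure_le]
        rintro w ⟨r, k, hr, hw⟩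
        rw [SetLike.mem_coe, Subgroup.mem_center_iff]
        intro g
        by_cases hw1 : (w : T) = 1
        · rw [show w = 1 from Subtype.ext hw1, mul_one, one_mul]
        have := hpp w r k hr w.2 (by rw [Subgroup.orderOf_coe, hw]) hw1
        exact Subtype.ext (mem_cen.1 (this.symm ▸ g.2 : (g : T) ∈ cen w)).eq.symm
      exact htop ▸ Subgroup.mem_top _
    -- a Sylow subgroup of `T` inside it
    haveI : Fact p.Prime := ⟨hp⟩
    obtain ⟨Q⟩ := Sylow.nonempty (p := p) (G := cen x)
    set Q' : Subgroup T := (Q : Subgroup (cen x)).map (cen x).subtype with hQ'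
    have hQ'le : Q' ≤ cen x := Subgroup.map_subtype_le _
    have hQ'p : IsPGroup p Q' := Q.isPGroup'.map _
    obtain ⟨S, hS⟩ := hQ'p.exists_le_sylow
    have hxQ : x ∈ Q' := by
      have hxz : IsPGroup p (Subgroup.zpowers (⟨x, self_mem x⟩ : cen x)) :=
        IsPGroup.of_card (n := 1) (by rw [Nat.card_zpowers, ← Subgroup.orderOf_coe, hxp, pow_one])
      obtain ⟨Q2, hQ2⟩ := hxz.exists_le_sylow
      have hQeq : Q2 = Q := by
        haveI : ((Q : Subgroup (cen x))).Normal := ⟨fun u hu g => by
          have : g * u = u * g := Subtype.ext (hab g g.2 u u.2).eq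
          rw [this, mul_inv_cancel_right]; exact hu⟩
        letI := Sylow.unique_of_normal Q ‹_›
        exact Subsingleton.elim _ _
      exact ⟨_, hQeq ▸ hQ2 (Subgroup.mem_zpowers _), rfl⟩
    -- elements normalizing a subgroup between `x` and the centralizer lie in it
    have hnQ : ∀ n : T, n ∈ Subgroup.normalizer (Q' : Set T) → n ∈ cen x := by
      intro n hn
      have hx' : n * x * n⁻¹ ∈ Q' := (Subgroup.mem_normalizer_iff.1 hn x).1 hxQ
      have hconj : cen (n * x * n⁻¹) = cen x := by
        obtain ⟨k, hk⟩ := IsPGroup.iff_orderOf.1 hQ'p ⟨_, hx'⟩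
        refine hpp _ p k hp (hQ'le hx') (by rw [← hk, Subgroup.orderOf_mk]) ?_
        exact fun h => hx (by simpa using h)
      refine hself x hx n fun w => ?_
      conv_rhs => rw [← hconj, mem_cen]
      rw [mem_cen]
      exact (SemiconjBy.conj_iff.trans Iff.rfl).symm
    have hSeq : (S : Subgroup T) = Q' := by
      refine le_antisymm ?_ hS
      by_contra hlt
      have hlt' : Q'.subgroupOf S < ⊤ := lt_top_iff_ne_top.2 fun h =>
        hlt (Subgroup.subgroupOf_eq_top.1 h)
      haveI : Group.IsNilpotent S := S.isPGroup'.isNilpotent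
      obtain ⟨n, hn1, hn2⟩ := SetLike.exists_of_lt (Group.normalizerCondition_of_isNilpotent _ hlt')
      apply hn2
      rw [Subgroup.mem_subgroupOf]
      have hnn : (n : T) ∈ Subgroup.normalizer (Q' : Set T) := by
        rw [Subgroup.mem_normalizer_iff]
        intro w
        constructor
        · intro hw
          exact (Subgroup.mem_normalizer_iff.1 hn1 ⟨w, hS hw⟩).1 hw
        · intro hw
          have hwS : w ∈ (S : Subgroup T) := by
            simpa [mul_assoc] using mul_mem (mul_mem (inv_mem n.2) (hS hw)) n.2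
          exact (Subgroup.mem_normalizer_iff.1 hn1 ⟨w, hwS⟩).2 hw
      have hnC := hnQ n hnn
      let U : Subgroup (cen x) := (S : Subgroup T).subgroupOf (cen x)
      have hU : IsPGroup p U := S.isPGroup'.comap_of_injective _ Subtype.val_injective
      have hQU : (Q : Subgroup (cen x)) ≤ U := fun u hu => hS ⟨u, hu, rfl⟩
      exact ⟨⟨n, hnC⟩, (Q.is_maximal' hU hQU) ▸ n.2, rfl⟩
    refine not_normalizer_le_centralizer hT S ?_ ?_
    · rw [hSeq]
      intro h
      exact hx (Subgroup.mem_bot.1 (h ▸ hxQ))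
    · rw [hSeq]
      intro n hn
      rw [Subgroup.mem_centralizer_iff]
      intro w hw
      exact (hab n (hnQ n hn) w (by rw [← hSeq] at hQ'le; exact hQ'le hw)).eq.symm
  -- every element lies in the centre of a Sylow subgroup, which is non-abelian
  have hsyl : ∀ x : T, x ≠ 1 → ∃ p ∈ (Nat.card T).primeFactors, ∃ S : Sylow p T,
      x ∈ (Subgroup.center S).map (S : Subgroup T).subtype := by
    intro x hx
    obtain ⟨p, hp, hpdvd⟩ := Nat.exists_prime_and_dvd (fun h => hx (orderOf_eq_one_iff.1 h))
    obtain ⟨j, hj, hjc⟩ := hprime x hx p hp hpdvd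
    haveI : Fact p.Prime := ⟨hp⟩
    have hall : ∀ w : cen x, ∃ k : ℕ, w ^ p ^ k = 1 := by
      intro w
      obtain ⟨k, m, hm, hwm⟩ := Nat.exists_eq_pow_mul_and_not_dvd (orderOf_pos (w : T)).ne' p
        hp.ne_one
      by_cases h1 : (w : T) ^ p ^ k = 1
      · exact ⟨k, Subtype.ext h1⟩
      exfalso
      refine hone p (x ^ j) ((w : T) ^ p ^ k) hp hj (by rw [hjc]; exact pow_mem w.2 _) h1 ?_
      rw [orderOf_pow, hwm, Nat.gcd_eq_right (dvd_mul_right _ _),
        Nat.mul_div_cancel_left _ (pow_pos hp.pos k)]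
      exact hm
    have hC : IsPGroup p (cen x) := hall
    obtain ⟨S, hS⟩ := hC.exists_le_sylow
    have hSC : (S : Subgroup T) = cen x := by
      refine le_antisymm ?_ hS
      by_contra hlt
      have hlt' : (cen x).subgroupOf S < ⊤ := lt_top_iff_ne_top.2 fun h =>
        hlt (Subgroup.subgroupOf_eq_top.1 h)
      haveI : Group.IsNilpotent S := S.isPGroup'.isNilpotent
      obtain ⟨n, hn1, hn2⟩ := SetLike.exists_of_lt (Group.normalizerCondition_of_isNilpotent _ hlt')
      apply hn2
      rw [Subgroup.mem_subgroupOf]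
      refine hself x hx n fun w => ⟨fun hw => ?_, fun hw => ?_⟩
      · exact (Subgroup.mem_normalizer_iff.1 hn1 ⟨w, hS hw⟩).1 hw
      · have hwS : w ∈ (S : Subgroup T) := by
          simpa [mul_assoc] using mul_mem (mul_mem (inv_mem n.2) (hS hw)) n.2
        exact (Subgroup.mem_normalizer_iff.1 hn1 ⟨w, hwS⟩).2 hw
    have hxS : x ∈ (S : Subgroup T) := hSC.symm ▸ self_mem x
    refine ⟨p, Nat.mem_primeFactors.2 ⟨hp, hpdvd.trans (orderOf_dvd_natCard x), Nat.card_pos.ne'⟩,
      S, ⟨x, hxS⟩, ?_, rfl⟩
    rw [SetLike.mem_coe, Subgroup.mem_center_iff]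
    intro g
    exact Subtype.ext (mem_cen.1 (hSC ▸ g.2 : (g : T) ∈ cen x)).eq.symm
  have hnonab : ∀ p : ℕ, p ∈ (Nat.card T).primeFactors → ∀ S : Sylow p T,
      ¬ IsMulCommutative (S : Subgroup T) := by
    intro p hp S hab
    haveI : Fact p.Prime := ⟨Nat.prime_of_mem_primeFactors hp⟩
    have hne : (S : Subgroup T) ≠ ⊥ := by
      intro h
      have := S.dvd_card_of_dvd_card (Nat.dvd_of_mem_primeFactors hp)
      rw [h, Subgroup.card_bot] at this
      exact (Fact.out : p.Prime).not_dvd_one this
    obtain ⟨⟨x, hxS⟩, hx⟩ := Subgroup.ne_bot_iff_exists_ne_one.1 hne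
    have hx' : x ≠ 1 := fun h => hx (Subtype.ext h)
    obtain ⟨k, hk⟩ := IsPGroup.iff_orderOf.1 S.isPGroup' ⟨x, hxS⟩
    have hxo : orderOf x = p ^ k := by rw [← hk, Subgroup.orderOf_mk]
    have hpdvd : p ∣ orderOf x := by
      rw [hxo]
      refine dvd_pow_self p fun h => hx' ?_
      rw [h, pow_zero] at hxo
      exact orderOf_eq_one_iff.1 hxo
    obtain ⟨j, hj, hjc⟩ := hprime x hx' p Fact.out hpdvd
    -- the centralizer of `x` is a `p`-group containing `S`
    have hScen : (S : Subgroup T) = cen x := by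
      have hle : (S : Subgroup T) ≤ cen x := fun w hw =>
        mem_cen.2 (show Commute x w from congrArg Subtype.val
          (hab.is_comm.comm (⟨x, hxS⟩ : (S : Subgroup T)) ⟨w, hw⟩))
      have hC : IsPGroup p (cen x) := by
        intro w
        obtain ⟨k, m, hm, hwm⟩ := Nat.exists_eq_pow_mul_and_not_dvd (orderOf_pos (w : T)).ne' p
          (Fact.out : p.Prime).ne_one
        by_cases h1 : (w : T) ^ p ^ k = 1
        · exact ⟨k, Subtype.ext h1⟩
        exfalso
        refine hone p (x ^ j) ((w : T) ^ p ^ k) Fact.out hj (by rw [hjc]; exact pow_mem w.2 _) h1 ?_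
        rw [orderOf_pow, hwm, Nat.gcd_eq_right (dvd_mul_right _ _),
          Nat.mul_div_cancel_left _ (pow_pos (Fact.out : p.Prime).pos k)]
        exact hm
      exact (S.is_maximal' hC hle).symm
    refine not_normalizer_le_centralizer hT S hne fun n hn => ?_
    rw [hScen] at hn
    have hnS : n ∈ (S : Subgroup T) := hScen.symm ▸ hself' x hx' hn
    rw [Subgroup.mem_centralizer_iff]
    intro w hw
    exact congrArg Subtype.val (hab.is_comm.comm ⟨w, hw⟩ (⟨n, hnS⟩ : (S : Subgroup T)))
  -- the count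
  haveI : Fintype T := Fintype.ofFinite T
  have hcover : (Finset.univ.erase (1 : T)) ⊆ (Nat.card T).primeFactors.biUnion fun p =>
      Finset.univ.filter fun x => x ≠ 1 ∧ ∃ S : Sylow p T,
        x ∈ (Subgroup.center S).map (S : Subgroup T).subtype := by
    intro x hx
    have hx1 : x ≠ 1 := Finset.ne_of_mem_erase hx
    obtain ⟨p, hp, S, hS⟩ := hsyl x hx1
    exact Finset.mem_biUnion.2 ⟨p, hp, Finset.mem_filter.2 ⟨Finset.mem_univ _, hx1, S, hS⟩⟩
  have hterm : ∀ p ∈ (Nat.card T).primeFactors, ((Finset.univ.filter fun x : T => x ≠ 1 ∧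
      ∃ S : Sylow p T, x ∈ (Subgroup.center S).map (S : Subgroup T).subtype).card : ℚ) ≤
      (Nat.card T : ℚ) * (1 / (p : ℚ) ^ 2) := by
    intro p hp
    haveI : Fact p.Prime := ⟨Nat.prime_of_mem_primeFactors hp⟩
    haveI : Fintype (Sylow p T) := Fintype.ofFinite _
    have h1 : (Finset.univ.filter fun x : T => x ≠ 1 ∧
        ∃ S : Sylow p T, x ∈ (Subgroup.center S).map (S : Subgroup T).subtype) ⊆
        (Finset.univ : Finset (Sylow p T)).biUnion fun S => Finset.univ.filter fun x =>
          x ∈ (Subgroup.center S).map (S : Subgroup T).subtype := by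
      intro x hx
      obtain ⟨-, -, S, hS⟩ := Finset.mem_filter.1 hx
      exact Finset.mem_biUnion.2 ⟨S, Finset.mem_univ _, Finset.mem_filter.2 ⟨Finset.mem_univ _, hS⟩⟩
    have h2 := (Finset.card_le_card h1).trans Finset.card_biUnion_le
    obtain ⟨S0⟩ := Sylow.nonempty (p := p) (G := T)
    have h3 : ∀ S : Sylow p T, (Finset.univ.filter fun x : T =>
        x ∈ (Subgroup.center S).map (S : Subgroup T).subtype).card * p ^ 2 ≤
        Nat.card (S0 : Subgroup T) := by
      intro S
      rw [← Fintype.card_subtype, ← Nat.card_eq_fintype_card,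
        show Nat.card (S0 : Subgroup T) = Nat.card (S : Subgroup T) from
          Nat.card_congr (Sylow.equiv S0 S).toEquiv]
      have e : Nat.card {x : T // x ∈ (Subgroup.center S).map (S : Subgroup T).subtype} =
          Nat.card (Subgroup.center S) :=
        (Nat.card_congr (Subgroup.equivMapOfInjective _ _
          (S : Subgroup T).subtype_injective).toEquiv).symm
      rw [e]
      exact center_card_mul_sq_le S.isPGroup' (hnonab p hp S)
    have hN : Nat.card (Sylow p T) * Nat.card (S0 : Subgroup T) ≤ Nat.card T := by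
      rw [← (S0 : Subgroup T).card_mul_index, mul_comm]
      exact Nat.mul_le_mul_left _ (Nat.le_of_dvd
        (Nat.pos_of_ne_zero Subgroup.index_ne_zero_of_finite) S0.card_dvd_index)
    rw [Nat.card_eq_fintype_card (α := Sylow p T)] at hN
    have hnat : (Finset.univ.filter fun x : T => x ≠ 1 ∧
        ∃ S : Sylow p T, x ∈ (Subgroup.center S).map (S : Subgroup T).subtype).card * p ^ 2 ≤
        Nat.card T := by
      refine le_trans (Nat.mul_le_mul_right _ h2) (le_trans ?_ hN)
      rw [Finset.sum_mul]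
      exact (Finset.sum_le_card_nsmul _ _ _ fun S _ => h3 S).trans (le_of_eq (by simp))
    have hp0 : (0 : ℚ) < (p : ℚ) ^ 2 := by
      have := (Fact.out : p.Prime).pos
      positivity
    rw [mul_one_div, le_div_iff₀ hp0]
    exact_mod_cast hnat
  have hT8 : 8 ≤ Nat.card T := by
    have h1 : Nat.card T ≠ 1 := by
      intro h
      haveI := (Nat.card_eq_one_iff_unique.1 h).1
      exact hT ⟨⟨fun _ _ => Subsingleton.elim _ _⟩⟩
    obtain ⟨p, hp, hpd⟩ := Nat.exists_prime_and_dvd h1
    have hpm : p ∈ (Nat.card T).primeFactors :=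
      Nat.mem_primeFactors.2 ⟨hp, hpd, Nat.card_pos.ne'⟩
    haveI : Fact p.Prime := ⟨hp⟩
    obtain ⟨S⟩ := Sylow.nonempty (p := p) (G := T)
    have h2 := center_card_mul_sq_le S.isPGroup' (hnonab p hpm S)
    have h3 : 2 ≤ Nat.card (Subgroup.center (S : Subgroup T)) := by
      haveI : Nontrivial (S : Subgroup T) := by
        rw [← not_subsingleton_iff_nontrivial]
        intro hs
        exact hnonab p hpm S ⟨⟨fun _ _ => Subsingleton.elim _ _⟩⟩
      haveI := S.isPGroup'.center_nontrivial
      exact Finite.one_lt_card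
    have h4 : Nat.card (S : Subgroup T) ≤ Nat.card T :=
      Nat.le_of_dvd Nat.card_pos (Subgroup.card_subgroup_dvd_card _)
    have h5 : 4 ≤ p ^ 2 := by
      have := hp.two_le
      nlinarith
    have h6 := Nat.mul_le_mul h3 h5
    omega
  have hfinal : ((Finset.univ.erase (1 : T)).card : ℚ) ≤ (Nat.card T : ℚ) * (3 / 4) := by
    refine le_trans (Nat.cast_le.2 ((Finset.card_le_card hcover).trans Finset.card_biUnion_le)) ?_
    push_cast
    refine (Finset.sum_le_sum hterm).trans ?_
    rw [← Finset.mul_sum]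
    exact mul_le_mul_of_nonneg_left (sum_inv_sq_subset_le _ fun m hm =>
      (Nat.prime_of_mem_primeFactors hm).two_le) (by positivity)
  rw [Finset.card_erase_of_mem (Finset.mem_univ _), Finset.card_univ, ← Nat.card_eq_fintype_card,
    Nat.cast_sub (by omega : 1 ≤ Nat.card T), Nat.cast_one] at hfinal
  have : (8 : ℚ) ≤ (Nat.card T : ℚ) := by exact_mod_cast hT8
  linarith

end

end Cfsg.Agent.RecogA
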