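import Cfsg.Agent.RecogA.ClassPrimitive
import Cfsg.Agent.RecogA.Manning
import Cfsg.Agent.RecogA.SocleAction
import Cfsg.Agent.Lib.MinimalNormal

/-!
An extremely primitive group is of affine type or almost simple. The proof avoids the O'Nan-Scott
theorem and the classification.
-/

namespace Cfsg.Agent.RecogA

open MulAction Cfsg.Agent.PermLib Pointwise

set_option linter.style.haveILetI false

variable {G : Type*} [Group G] [Finite G] {Ω : Type*} [Finite Ω] [MulAction G Ω] [FaithfulSMul G Ω]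

/-- The case of a simple factor all of whose inner automorphisms come from the point stabilizer
is impossible. -/
theorem diagonal_false (hprim : IsPreprimitive G Ω) (hH : ∀ α : Ω, stabilizer G α ≠ ⊥)
    (hep : ∀ α ω : Ω, IsPreprimitive (stabilizer G α) (orbit (stabilizer G α) ω)) (α : Ω)
    {M T : Subgroup G} [M.Normal] [IsSimpleGroup T] (hTna : ¬ IsMulCommutative T) (hTM : T ≤ M)
    (hMT : M ≤ Subgroup.normalizer (T : Set G))
    (hdisj : ∀ g : G, cjg g T ≠ T → T ⊓ cjg g T = ⊥ ∧ ∀ a ∈ T, ∀ b ∈ cjg g T, Commute a b)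
    (hM : ∀ m ∈ M, ∃ t ∈ T, t⁻¹ * m ∈ Subgroup.centralizer (T : Set G))
    (hcov : ∀ t ∈ T, ∃ s ∈ M ⊓ stabilizer G α, s⁻¹ * t ∈ Subgroup.centralizer (T : Set G)) :
    False := by
  classical
  haveI := hprim
  haveI : Nontrivial T := IsSimpleGroup.toNontrivial
  haveI : IsPretransitive G Ω := hprim.toIsPretransitive
  set H := stabilizer G α with hHdef
  have hMne : M ≠ ⊥ := fun h =>
    (Subgroup.nontrivial_iff_ne_bot T).1 inferInstance (eq_bot_iff.2 (h ▸ hTM))
  haveI : IsPretransitive M Ω := isPretransitive_of_normal_ne_bot hMne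
  set S := M ⊓ H with hS
  have hSn : H ≤ Subgroup.normalizer (S : Set G) := by
    intro h hh
    rw [Subgroup.mem_normalizer_iff]
    intro x
    refine ⟨fun ⟨h1, h2⟩ => ⟨Subgroup.Normal.conj_mem inferInstance x h1 h, ?_⟩, fun ⟨h1, h2⟩ => ?_⟩
    · show h * x * h⁻¹ ∈ H
      exact mul_mem (mul_mem hh (show x ∈ H from h2)) (inv_mem hh)
    · have h1' : h * x * h⁻¹ ∈ M := h1
      have h2' : h * x * h⁻¹ ∈ H := h2
      refine ⟨?_, ?_⟩
      · simpa [mul_assoc] using (inferInstance : M.Normal).conj_mem _ h1' h⁻¹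
      · show x ∈ H
        simpa [mul_assoc] using mul_mem (mul_mem (inv_mem hh) h2') hh
  have hsemi : ∀ x ∈ T, x • α = α → x = 1 := fun x hx hxα =>
    eq_one_of_mem_stabilizer hTM hMT hcov hx hxα
  have hSne : S ≠ ⊥ := by
    intro h
    apply hTna
    refine ⟨⟨fun a b => Subtype.ext ?_⟩⟩
    obtain ⟨s, hs, hsb⟩ := hcov b b.2
    rw [h, Subgroup.mem_bot] at hs
    rw [hs, inv_one, one_mul] at hsb
    exact Subgroup.mem_centralizer_iff.1 hsb a a.2
  -- `T` is regular
  set X : Set Ω := orbit T α with hX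
  have hHX : ∀ h ∈ H, h ∈ stabilizer G X := by
    intro h hh
    have fwd : ∀ k ∈ H, ∀ x ∈ X, k • x ∈ X := by
      rintro k hk _ ⟨t, rfl⟩
      have h1 : k • ((t : G) • α) ∈ orbit S ((t : G) • α) := by
        rw [orbit_normal_eq hprim hH hep hSne inf_le_right hSn]
        exact ⟨⟨k, hk⟩, rfl⟩
      obtain ⟨⟨s, hs⟩, hs'⟩ := h1
      have hs'' : s • ((t : G) • α) = k • ((t : G) • α) := hs'
      refine ⟨⟨s * t * s⁻¹, (Subgroup.mem_normalizer_iff.1 (hMT hs.1) _).1 t.2⟩, ?_⟩
      change (s * t * s⁻¹) • α = k • ((t : G) • α)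
      rw [mul_smul, mem_stabilizer_iff.1 (inv_mem (show s ∈ H from hs.2)), mul_smul]
      exact hs''
    rw [mem_stabilizer_iff]
    ext x
    rw [Set.mem_smul_set_iff_inv_smul_mem]
    exact ⟨fun hx => by simpa using fwd h hh _ hx, fun hx => fwd h⁻¹ (inv_mem hh) x hx⟩
  have hTX : ∀ t ∈ T, t ∈ stabilizer G X := fun t ht =>
    mem_stabilizer_iff.2 (smul_orbit (⟨t, ht⟩ : T) α)
  haveI : Nontrivial Ω := by
    obtain ⟨t, ht⟩ := exists_ne (1 : T)
    exact nontrivial_of_ne ((t : G) • α) α fun e => ht (Subtype.ext (hsemi _ t.2 e))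
  haveI hTtrans : IsPretransitive T Ω := by
    have hXuniv : ∀ x, x ∈ X := by
      intro x
      rcases (IsPreprimitive.isCoatom_stabilizer_of_isPreprimitive G α).le_iff.1
        (show H ≤ stabilizer G X from hHX) with e | e
      · obtain ⟨g, hg⟩ := exists_smul_eq G α x
        have hmem : g • α ∈ g • X := Set.smul_mem_smul_set (mem_orbit_self α)
        rw [mem_stabilizer_iff.1 (e ▸ Subgroup.mem_top g : g ∈ stabilizer G X), hg] at hmem
        exact hmem
      · exfalso
        obtain ⟨t, ht⟩ := exists_ne (1 : T)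
        exact ht (Subtype.ext (hsemi _ t.2 (e ▸ hTX t t.2 : (t : G) ∈ stabilizer G α)))
    refine IsPretransitive.mk fun x y => ?_
    obtain ⟨a, ha⟩ := hXuniv x
    obtain ⟨b, hb⟩ := hXuniv y
    have ha' : a • α = x := ha
    have hb' : b • α = y := hb
    exact ⟨b * a⁻¹, by rw [← ha', mul_smul, inv_smul_smul, hb']⟩
  have hbij : Function.Bijective (fun t : T => (t : G) • α) :=
    smul_bijective_of_regular (a := α)
      ((Subgroup.eq_bot_iff_forall _).2 fun t ht => Subtype.ext (hsemi _ t.2 ht))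
  let e : T ≃ Ω := Equiv.ofBijective _ hbij
  have he : ∀ t : T, e t = (t : G) • α := fun t => rfl
  -- the map from `T` to the stabilizer
  choose σ hσ1 hσ2 using hcov
  have hinj : ∀ x ∈ H, x ∈ Subgroup.centralizer (T : Set G) → x = 1 := fun x hx hxc =>
    congrArg Subtype.val ((Subgroup.eq_bot_iff_forall _).1
      (stabilizer_centralizer_eq_bot (N := T) α) ⟨x, hxc⟩ hx)
  have huniq : ∀ t (ht : t ∈ T) s, s ∈ S → s⁻¹ * t ∈ Subgroup.centralizer (T : Set G) →
      s = σ t ht := by
    intro t ht s hs h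
    have h1 : s⁻¹ * σ t ht = 1 := hinj _ (mul_mem (inv_mem hs.2) (hσ1 t ht).2)
      (by simpa [mul_assoc] using mul_mem h (inv_mem (hσ2 t ht)))
    exact inv_mul_eq_one.1 h1
  let c : T →* H := MonoidHom.mk' (fun t => ⟨σ t t.2, (hσ1 t t.2).2⟩) fun a b => by
    refine Subtype.ext (huniq _ (a * b).2 (σ a a.2 * σ b b.2) ?_ ?_).symm
    · exact mul_mem (hσ1 a a.2) (hσ1 b b.2)
    · have h1 := centralizer_normalized (inv_mem (hMT (hσ1 b b.2).1)) (hσ2 a a.2)
      have := mul_mem h1 (hσ2 b b.2)
      simpa [mul_assoc] using this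
  have hnorm : c.range.Normal := by
    have hr : c.range = S.subgroupOf H := by
      ext s
      rw [Subgroup.mem_subgroupOf]
      constructor
      · rintro ⟨t, rfl⟩; exact hσ1 t t.2
      · intro hs
        obtain ⟨t, ht, htc⟩ := hM s hs.1
        refine ⟨⟨t, ht⟩, Subtype.ext (huniq t ht s hs ?_).symm⟩
        simpa using inv_mem htc
    rw [hr]
    exact Subgroup.normal_subgroupOf_of_le_normalizer hSn
  letI : MulAction H T :=
    { smul := fun h t => e.symm (h • e t)
      one_smul := fun t => by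
        change e.symm ((1 : H) • e t) = t
        rw [one_smul, e.symm_apply_apply]
      mul_smul := fun h k t => by
        change e.symm ((h * k) • e t) = e.symm (h • e (e.symm (k • e t)))
        rw [e.apply_symm_apply, mul_smul] }
  have hsm : ∀ (h : H) (t : T), ((h • t : T) : G) • α = (h : G) • (t : G) • α := fun h t => by
    rw [← he]
    exact e.apply_symm_apply _
  have hc : ∀ t x : T, c t • x = t * x * t⁻¹ := by
    intro t x
    apply hbij.1
    dsimp only
    rw [hsm]
    have := mul_conj_of_mem_centralizer x.2 (hσ2 t t.2)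
    change σ t t.2 • ((x : G) • α) = ((t : G) * x * (t : G)⁻¹) • α
    rw [this, mul_smul, mem_stabilizer_iff.1 (inv_mem (hσ1 t t.2).2), mul_smul]
  have hpow : ∀ (h : H) (x : T) (j : ℕ), h • x ^ j = (h • x) ^ j := by
    intro h x j
    apply hbij.1
    dsimp only
    rw [hsm, SubmonoidClass.coe_pow, SubmonoidClass.coe_pow]
    set y : G := (h : G) * x * (h : G)⁻¹ with hy
    set x' : G := ((h • x : T) : G) with hx'
    have hyα : y • α = x' • α := by
      rw [hx', hsm, hy, mul_smul, mem_stabilizer_iff.1 (inv_mem h.2), mul_smul]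
    have hyT : y ∈ cjg (h : G) T := ⟨x, x.2, rfl⟩
    have hcomm : Commute x' y := by
      by_cases hh : cjg (h : G) T = T
      · have hy' : y ∈ T := hh ▸ hyT
        have : y = x' := congrArg Subtype.val
          (hbij.1 (show ((⟨y, hy'⟩ : T) : G) • α = ((h • x : T) : G) • α from hyα))
        rw [this]
      · exact (hdisj _ hh).2 _ (h • x).2 _ hyT
    have hind : ∀ i, (y ^ i) • α = (x' ^ i) • α := by
      intro i
      induction i with
      | zero => simp
      | succ i ih =>
        rw [pow_succ' y i, mul_smul, ih, smul_smul, ← (hcomm.pow_left i).eq, mul_smul, hyα,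
          smul_smul, ← pow_succ]
    rw [← hind j, hy, conj_pow, mul_smul, mem_stabilizer_iff.1 (inv_mem h.2), mul_smul]
  have hmax : ∀ x : T, x ≠ 1 → IsCoatom (stabilizer H x) := by
    intro x hx
    have hne : (x : G) • α ≠ α := fun e' => hx (Subtype.ext (hsemi _ x.2 e'))
    convert isCoatom_stabilizer_of_orbit hprim hH hep hne using 1
    ext h
    rw [mem_stabilizer_iff, mem_stabilizer_iff]
    change h • x = x ↔ (h : G) • (x : G) • α = (x : G) • α
    rw [← hsm]
    exact ⟨fun h' => by rw [h'], fun h' => hbij.1 h'⟩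
  exact false_of_maximal_centralizers hTna c hc hnorm hpow hmax

/-- A regular minimal normal subgroup with trivial centralizer and at least two simple factors is
impossible (the twisted wreath case). -/
theorem twisted_false (hprim : IsPreprimitive G Ω) (hH : ∀ α : Ω, stabilizer G α ≠ ⊥)
    (hep : ∀ α ω : Ω, IsPreprimitive (stabilizer G α) (orbit (stabilizer G α) ω)) (α : Ω)
    {N T : Subgroup G} [N.Normal] [IsSimpleGroup T] (hTna : ¬ IsMulCommutative T) (hTN : T ≤ N)
    (hdisj : ∀ g : G, cjg g T ≠ T → T ⊓ cjg g T = ⊥ ∧ ∀ a ∈ T, ∀ b ∈ cjg g T, Commute a b)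
    (hreg : ∀ n ∈ N, n • α = α → n = 1)
    (hmove : ∃ h ∈ stabilizer G α, cjg h T ≠ T) : False := by
  classical
  haveI := hprim
  haveI : Nontrivial T := IsSimpleGroup.toNontrivial
  obtain ⟨h0, hh0, hh0T⟩ := hmove
  obtain ⟨⟨t, ht⟩, ht1⟩ := exists_ne (1 : T)
  have ht1' : t ≠ 1 := fun e => ht1 (Subtype.ext e)
  have cjg_cjg : ∀ g h : G, cjg g (cjg h T) = cjg (g * h) T := by
    intro g h
    ext x
    simp [mem_cjg, mul_assoc]
  have cjg_one : cjg (1 : G) T = T := by
    ext x
    simp [mem_cjg]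
  have hfix : ∀ (h : stabilizer G α) (n : G), n ∈ N →
      ((h : G) • n • α = n • α ↔ (h : G) * n * (h : G)⁻¹ = n) := by
    intro h n hn
    constructor
    · intro e
      have : (n⁻¹ * ((h : G) * n * (h : G)⁻¹)) • α = α := by
        rw [mul_smul, mul_smul, mul_smul, mem_stabilizer_iff.1 (inv_mem h.2), e, inv_smul_smul]
      have hmem : n⁻¹ * ((h : G) * n * (h : G)⁻¹) ∈ N :=
        mul_mem (inv_mem hn) (Subgroup.Normal.conj_mem inferInstance n hn _)
      exact (inv_mul_eq_one.1 (hreg _ hmem this)).symm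
    · intro e
      calc (h : G) • n • α = ((h : G) * n * (h : G)⁻¹) • α := by
            rw [mul_smul, mul_smul, mem_stabilizer_iff.1 (inv_mem h.2)]
        _ = n • α := by rw [e]
  -- the stabilizer of the factor `T`
  let J : Subgroup (stabilizer G α) :=
    { carrier := {h | cjg (h : G) T = T}
      one_mem' := by simpa using cjg_one
      mul_mem' := fun {a b} ha hb => by
        change cjg ((a * b : stabilizer G α) : G) T = T
        rw [Subgroup.coe_mul, ← cjg_cjg, hb, ha]
      inv_mem' := fun {a} ha => by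
        change cjg ((a⁻¹ : stabilizer G α) : G) T = T
        conv_lhs => rw [← ha, cjg_cjg, Subgroup.coe_inv, inv_mul_cancel, cjg_one] }
  have hJne : J ≠ ⊤ := fun e => hh0T (e ▸ Subgroup.mem_top (⟨h0, hh0⟩ : stabilizer G α) :)
  have hne : t • α ≠ α := fun e => ht1' (hreg t (hTN ht) e)
  have hle : stabilizer (stabilizer G α) (t • α) ≤ J := by
    intro h hh
    have e := (hfix h t (hTN ht)).1 hh
    by_contra hc
    have hmem : t ∈ T ⊓ cjg (h : G) T := ⟨ht, t, ht, e⟩
    rw [(hdisj _ hc).1, Subgroup.mem_bot] at hmem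
    exact ht1' hmem
  have hJcent : ∀ h ∈ J, (h : G) * t * (h : G)⁻¹ = t := by
    intro h hh
    rcases (isCoatom_stabilizer_of_orbit hprim hH hep hne).le_iff.1 hle with e | e
    · exact absurd e hJne
    · rw [e] at hh
      exact (hfix h t (hTN ht)).1 hh
  -- the diagonal element
  haveI : Fintype (stabilizer G α ⧸ J) := Fintype.ofFinite _
  let f : stabilizer G α ⧸ J → G := Quotient.lift
    (fun h : stabilizer G α => (h : G) * t * (h : G)⁻¹) fun a b hab => by
      have h1 : a⁻¹ * b ∈ J := QuotientGroup.leftRel_apply.1 hab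
      have h2 := hJcent _ h1
      rw [Subgroup.coe_mul, Subgroup.coe_inv] at h2
      change (a : G) * t * (a : G)⁻¹ = (b : G) * t * (b : G)⁻¹
      calc (a : G) * t * (a : G)⁻¹
          = (a : G) * ((a : G)⁻¹ * b * t * ((a : G)⁻¹ * b)⁻¹) * (a : G)⁻¹ := by rw [h2]
        _ = (b : G) * t * (b : G)⁻¹ := by group
  have hf : ∀ h : stabilizer G α, f (h : stabilizer G α ⧸ J) = (h : G) * t * (h : G)⁻¹ :=
    fun h => rfl
  have hcomm : ∀ p q : stabilizer G α ⧸ J, p ≠ q → Commute (f p) (f q) := by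
    intro p q
    induction p using QuotientGroup.induction_on with
    | _ a =>
      induction q using QuotientGroup.induction_on with
      | _ b =>
        intro hpq
        rw [hf, hf]
        have hab : cjg ((a : G)⁻¹ * b) T ≠ T := fun e => hpq (QuotientGroup.eq.2
          (show cjg (((a⁻¹ * b : stabilizer G α)) : G) T = T by
            rw [Subgroup.coe_mul, Subgroup.coe_inv]; exact e))
        have := (hdisj _ hab).2 t ht _ ⟨t, ht, rfl⟩
        have := this.map (MulAut.conj (a : G))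
        simpa [mul_assoc] using this
  have hfN : ∀ q, f q ∈ N := by
    intro q
    induction q using QuotientGroup.induction_on with
    | _ a => rw [hf]; exact Subgroup.Normal.conj_mem inferInstance t (hTN ht) _
  have hcomm' : ((Finset.univ : Finset (stabilizer G α ⧸ J)) :
      Set (stabilizer G α ⧸ J)).Pairwise (Function.onFun Commute f) :=
    fun p _ q _ hpq => hcomm p q hpq
  set d := Finset.univ.noncommProd f hcomm' with hd
  have hdN : d ∈ N := N.toSubmonoid.noncommProd_mem _ _ _ fun q _ => hfN q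
  have hdfix : ∀ h : stabilizer G α, (h : G) * d * (h : G)⁻¹ = d := by
    intro h
    have hh : ∀ q, (h : G) * f q * (h : G)⁻¹ = f (h • q) := by
      intro q
      induction q using QuotientGroup.induction_on with
      | _ a =>
        rw [show h • (a : stabilizer G α ⧸ J) = ((h * a : stabilizer G α) : stabilizer G α ⧸ J) from rfl,
          hf, hf, Subgroup.coe_mul]
        group
    change MulAut.conj (h : G) d = d
    rw [hd, Finset.map_noncommProd]
    simp only [Finset.noncommProd, MulAut.conj_apply, hh]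
    congr 1
    conv_rhs => rw [← Finset.map_univ_equiv (MulAction.toPerm h : Equiv.Perm (stabilizer G α ⧸ J))]
    rw [Finset.map_val, Multiset.map_map]
    rfl
  have hd1 : d ≠ 1 := by
    intro e
    have hsplit := Finset.mul_noncommProd_erase (s := Finset.univ)
      (a := ((1 : stabilizer G α) : stabilizer G α ⧸ J)) (Finset.mem_univ _) f hcomm'
    rw [← hd, e, hf, Subgroup.coe_one, one_mul, inv_one, mul_one] at hsplit
    have hrest : t⁻¹ ∈ Subgroup.centralizer (T : Set G) := by
      rw [← eq_inv_of_mul_eq_one_right hsplit]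
      refine (Subgroup.centralizer (T : Set G)).toSubmonoid.noncommProd_mem _ _ _ fun q hq => ?_
      revert hq
      induction q using QuotientGroup.induction_on with
      | _ a =>
        intro hq
        rw [hf]
        have ha : cjg (a : G) T ≠ T := fun e' => (Finset.mem_erase.1 hq).1
          (QuotientGroup.eq.2 (by rw [mul_one]; exact inv_mem (show a ∈ J from e')))
        exact Subgroup.mem_centralizer_iff.2 fun x hx => ((hdisj _ ha).2 x hx _ ⟨t, ht, rfl⟩).eq
    exact ht1' (inv_eq_one.1 (simple_inter_centralizer_eq_one hTna (inv_mem ht) hrest))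
  have hdα : d • α ≠ α := fun e => hd1 (hreg d hdN e)
  exact stabilizer_not_le hprim (hH (d • α)) hdα.symm
    fun h hh => mem_stabilizer_iff.2 ((hfix ⟨h, hh⟩ d hdN).2 (hdfix ⟨h, hh⟩))

theorem affine_or_almost_simple [Nontrivial Ω] (hprim : IsPreprimitive G Ω)
    (hep : ∀ α ω : Ω, IsPreprimitive (stabilizer G α) (orbit (stabilizer G α) ω)) :
    (∃ N : Subgroup G, N.Normal ∧ N ≠ ⊥ ∧ IsMulCommutative N ∧ ∀ ω : Ω, stabilizer N ω = ⊥) ∨
      (∃ T : Subgroup G, T.Normal ∧ IsSimpleGroup T ∧ ¬ IsMulCommutative T ∧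
        Subgroup.centralizer (T : Set G) = ⊥) := by
  classical
  haveI := hprim
  haveI : IsPretransitive G Ω := hprim.toIsPretransitive
  obtain ⟨α, β, hαβ⟩ := exists_pair_ne Ω
  haveI : Nontrivial G := by
    obtain ⟨g, hg⟩ := exists_smul_eq G α β
    exact nontrivial_of_ne g 1 fun e => hαβ (by rw [← hg, e, one_smul])
  by_cases hH : ∀ a : Ω, stabilizer G a ≠ ⊥
  swap
  · push Not at hH
    obtain ⟨a, ha⟩ := hH
    have hbot : ∀ b : Ω, stabilizer G b = ⊥ := by
      intro b
      obtain ⟨g, rfl⟩ := exists_smul_eq G a b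
      rw [stabilizer_smul_eq_stabilizer_map_conj, ha, Subgroup.map_bot]
    have hco := IsPreprimitive.isCoatom_stabilizer_of_isPreprimitive G a
    rw [ha] at hco
    obtain ⟨g, hg⟩ := exists_ne (1 : G)
    have htop : Subgroup.zpowers g = ⊤ :=
      hco.2 _ (bot_lt_iff_ne_bot.2 fun e => hg (Subgroup.zpowers_eq_bot.1 e))
    refine Or.inl ⟨⊤, inferInstance, top_ne_bot, ⟨⟨fun x y => Subtype.ext ?_⟩⟩, fun b => ?_⟩
    · obtain ⟨i, hi⟩ := Subgroup.mem_zpowers_iff.1 (show (x : G) ∈ Subgroup.zpowers g by rw [htop]; exact Subgroup.mem_top _)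
      obtain ⟨j, hj⟩ := Subgroup.mem_zpowers_iff.1 (show (y : G) ∈ Subgroup.zpowers g by rw [htop]; exact Subgroup.mem_top _)
      rw [Subgroup.coe_mul, Subgroup.coe_mul, ← hi, ← hj, ← zpow_add, ← zpow_add, add_comm]
    · rw [Subgroup.eq_bot_iff_forall]
      exact fun x hx => Subtype.ext ((Subgroup.eq_bot_iff_forall _).1 (hbot b) x hx)
  obtain ⟨N, hNn, hNne, hNmin⟩ := Cfsg.Agent.MinNormal.exists_minimal_normal (G := G)
  haveI := hNn
  haveI : IsPretransitive N Ω := isPretransitive_of_normal_ne_bot hNne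
  by_cases hab : IsMulCommutative N
  · exact Or.inl ⟨N, hNn, hNne, hab, fun ω => stabilizer_eq_bot_of_isMulCommutative hab ω⟩
  obtain ⟨T, hTN, hNT, hTs, hTna, hdisj, hsup⟩ := exists_simple_factor N hNne
    (fun M h1 h2 h3 => (hNmin M h1 h2).resolve_left h3) hab
  haveI := hTs
  set C := Subgroup.centralizer (N : Set G) with hC
  by_cases hCbot : C = ⊥
  · by_cases hTeq : ∀ g, cjg g T = T
    · have hTN' : T = N := by rw [← hsup]; simp [hTeq]
      subst hTN'
      exact Or.inr ⟨T, hNn, hTs, hTna, hCbot⟩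
    push Not at hTeq
    obtain ⟨g, hg⟩ := hTeq
    have hfac := exists_factor_mul_centralizer hTN hdisj hsup
    -- move `g` into the stabilizer
    have hmove : ∃ h ∈ stabilizer G α, cjg h T ≠ T := by
      obtain ⟨n, hn, h, hh, hgnh⟩ := exists_mem_mul_mem_stabilizer N α g⁻¹
      refine ⟨h⁻¹, inv_mem hh, fun e => hg ?_⟩
      rw [show g = h⁻¹ * n⁻¹ by rw [← inv_inv g, hgnh, mul_inv_rev]]
      have hnT : cjg n⁻¹ T = T :=
        Subgroup.mem_normalizer_iff_map_conj_eq.1 (hNT (inv_mem hn))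
      calc cjg (h⁻¹ * n⁻¹) T = cjg h⁻¹ (cjg n⁻¹ T) := by ext x; simp [mem_cjg, mul_assoc]
        _ = T := by rw [hnT, e]
    exfalso
    by_cases hcov : ∀ t ∈ T, ∃ s ∈ N ⊓ stabilizer G α, s⁻¹ * t ∈ Subgroup.centralizer (T : Set G)
    · exact diagonal_false hprim hH hep α hTna hTN hNT hdisj hfac hcov
    push Not at hcov
    obtain ⟨t, ht, htnot⟩ := hcov
    by_cases hS : N ⊓ stabilizer G α = ⊥
    · exact twisted_false hprim hH hep α hTna hTN hdisj
        (fun n hn hnα => Subgroup.mem_bot.1 (hS ▸ Subgroup.mem_inf.2 ⟨hn, hnα⟩)) hmove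
    set S := N ⊓ stabilizer G α with hSdef
    obtain ⟨h, hh, hhT⟩ := hmove
    have hSn : stabilizer G α ≤ Subgroup.normalizer (S : Set G) := by
      intro k hk
      rw [Subgroup.mem_normalizer_iff]
      intro x
      refine ⟨fun ⟨h1, h2⟩ => ⟨Subgroup.Normal.conj_mem hNn x h1 k,
        show k * x * k⁻¹ ∈ stabilizer G α from
          mul_mem (mul_mem hk (show x ∈ stabilizer G α from h2)) (inv_mem hk)⟩, fun ⟨h1, h2⟩ => ?_⟩
      have h1' : k * x * k⁻¹ ∈ N := h1
      have h2' : k * x * k⁻¹ ∈ stabilizer G α := h2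
      refine ⟨?_, ?_⟩
      · simpa [mul_assoc] using hNn.conj_mem _ h1' k⁻¹
      · show x ∈ stabilizer G α
        simpa [mul_assoc] using mul_mem (mul_mem (inv_mem hk) h2') hk
    have horb : h • t • α ∈ orbit S (t • α) := by
      rw [orbit_normal_eq hprim hH hep hS inf_le_right hSn]
      exact ⟨⟨h, hh⟩, rfl⟩
    obtain ⟨⟨s, hs⟩, hs'⟩ := horb
    have hs'' : s • t • α = h • t • α := hs'
    set t' : G := s * t * s⁻¹ with ht'
    set u : G := h * t * h⁻¹ with hu
    have hSN : S ≤ Subgroup.normalizer (T : Set G) := fun x hx => hNT hx.1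
    have ht'T : t' ∈ T := (Subgroup.mem_normalizer_iff.1 (hSN hs) t).1 ht
    have huT : u ∈ cjg h T := ⟨t, ht, rfl⟩
    have huc : u ∈ Subgroup.centralizer (T : Set G) :=
      Subgroup.mem_centralizer_iff.2 fun a ha => ((hdisj _ hhT).2 a ha u huT).eq
    have hfixed : (t'⁻¹ * u) • α = α := by
      rw [mul_smul, inv_smul_eq_iff, ht', hu, mul_smul, mul_smul, mul_smul, mul_smul,
        mem_stabilizer_iff.1 (inv_mem hh),
        mem_stabilizer_iff.1 (inv_mem (show s ∈ stabilizer G α from hs.2))]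
      exact hs''.symm
    have huN : u ∈ N := hNn.conj_mem t (hTN ht) h
    have hcov' : t'⁻¹ ∈ covered S T hSN := by
      refine ⟨inv_mem ht'T, t'⁻¹ * u,
        Subgroup.mem_inf.2 ⟨mul_mem (inv_mem (hTN ht'T)) huN, hfixed⟩, ?_⟩
      simpa using inv_mem huc
    have hct := conj_mem_covered hSN ((covered S T hSN).inv_mem hcov') (inv_mem hs)
    simp [ht', mul_assoc] at hct
    obtain ⟨-, s1, hs1, hs1c⟩ := hct
    exact htnot s1 hs1 hs1c
  · exfalso
    haveI : IsPretransitive C Ω := isPretransitive_of_normal_ne_bot hCbot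
    have hreg : ∀ n ∈ N, n • α = α → n = 1 := fun n hn hnα =>
      congrArg Subtype.val ((Subgroup.eq_bot_iff_forall _).1
        (stabilizer_centralizer_eq_bot (N := C) α) ⟨n, fun c hc => (hc n hn).symm⟩ hnα)
    have hCT : C ≤ Subgroup.centralizer (T : Set G) := Subgroup.centralizer_le hTN
    haveI : (N ⊔ C).Normal := inferInstance
    refine diagonal_false hprim hH hep α (M := N ⊔ C) hTna (le_trans hTN le_sup_left)
      (sup_le hNT (hCT.trans (centralizer_le_normalizer T))) hdisj ?_ ?_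
    · intro m hm
      rw [← SetLike.mem_coe, Subgroup.normal_mul] at hm
      obtain ⟨n, hn, c, hc, rfl⟩ := Set.mem_mul.1 hm
      obtain ⟨t, ht, htc⟩ := exists_factor_mul_centralizer hTN hdisj hsup n hn
      exact ⟨t, ht, by rw [← mul_assoc]; exact mul_mem htc (hCT hc)⟩
    · intro t ht
      obtain ⟨⟨c, hc⟩, hcα⟩ := exists_smul_eq C α (t⁻¹ • α)
      refine ⟨t * c, Subgroup.mem_inf.2 ⟨Subgroup.mul_mem_sup (hTN ht) hc, ?_⟩, ?_⟩
      · rw [mem_stabilizer_iff, mul_smul, show c • α = t⁻¹ • α from hcα, smul_inv_smul]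
      · have := inv_mem (hCT hc)
        rw [mul_inv_rev, mul_assoc, inv_mul_cancel, mul_one]
        exact this

end Cfsg.Agent.RecogA
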