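import Mathlib

/-!
A maximal subgroup of a finite almost simple group does not have prime order.
-/

namespace Cfsg.Agent.RecogA

open MulAction Pointwise

set_option linter.style.haveILetI false

theorem maximal_not_prime_order {G : Type*} [Group G] [Finite G] (T : Subgroup G) [T.Normal]
    (hT : IsSimpleGroup T) (hTc : ¬ IsMulCommutative T)
    (hC : Subgroup.centralizer (T : Set G) = ⊥) (H : Subgroup G) (hmax : IsCoatom H) :
    ¬ (Nat.card H).Prime := by
  classical
  intro hp
  set p := Nat.card H with hpdef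
  haveI : Fact p.Prime := ⟨hp⟩
  haveI := hT
  haveI : Nontrivial T := IsSimpleGroup.toNontrivial
  have hTne : T ≠ ⊥ := (Subgroup.nontrivial_iff_ne_bot T).1 inferInstance
  have hHne : H ≠ ⊥ := fun h => by
    rw [hpdef, h, Subgroup.card_bot] at hp; exact Nat.not_prime_one hp
  have hTnp : ∀ q : ℕ, q.Prime → ¬ IsPGroup q T := by
    intro q hq hTq
    haveI : Fact q.Prime := ⟨hq⟩
    haveI := hTq.center_nontrivial
    rcases (inferInstance : (Subgroup.center T).Normal).eq_bot_or_eq_top with e | e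
    · exact (Subgroup.nontrivial_iff_ne_bot _).1 inferInstance e
    · exact hTc ⟨⟨fun a b => (Subgroup.mem_center_iff.1 (e ▸ Subgroup.mem_top a) b).symm⟩⟩
  -- `H` is not inside `T`
  by_cases hHT : H ≤ T
  · have hTtop : T = ⊤ := by
      rcases hmax.le_iff.1 hHT with h | h
      · exact h
      · exfalso
        refine hTnp p hp ?_
        rw [h]
        exact IsPGroup.of_card (n := 1) (by rw [pow_one])
    subst hTtop
    have hG : ¬ IsMulCommutative G := fun h => hTc ⟨⟨fun a b => Subtype.ext (h.is_comm.comm _ _)⟩⟩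
    haveI : IsSimpleGroup G := Subgroup.topEquiv.isSimpleGroup_congr.1 hT
    have hHp : IsPGroup p H := IsPGroup.of_card (n := 1) (by rw [pow_one])
    obtain ⟨S, hS⟩ := hHp.exists_le_sylow
    have hSH : (S : Subgroup G) = H := by
      rcases hmax.le_iff.1 hS with h | h
      · exfalso
        apply hTnp p hp
        rw [← h]
        exact S.isPGroup'
      · exact h
    have hN : Subgroup.normalizer (H : Set G) = H := by
      rcases hmax.le_iff.1 (Subgroup.le_normalizer (H := H)) with h | h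
      · exfalso
        haveI : H.Normal := Subgroup.normalizer_eq_top_iff.1 h
        rcases (inferInstance : H.Normal).eq_bot_or_eq_top with e | e
        · exact hHne e
        · exact hmax.1 e
      · exact h
    haveI : IsCyclic H := isCyclic_of_prime_card (p := p) rfl
    have hle : Subgroup.normalizer ((S : Subgroup G) : Set G) ≤
        Subgroup.centralizer (S : Set G) := by
      rw [show (S : Set G) = (H : Set G) by rw [← hSH]; rfl, hSH, hN]
      intro x hx y hy
      letI : CommGroup H := IsCyclic.commGroup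
      exact congrArg Subtype.val (mul_comm (⟨y, hy⟩ : H) ⟨x, hx⟩)
    have hc := MonoidHom.ker_transferSylow_isComplement' S hle
    rcases (inferInstance : (MonoidHom.transferSylow S hle).ker.Normal).eq_bot_or_eq_top with e | e
    · rw [e, Subgroup.isComplement'_bot_left] at hc
      exact hmax.1 (hSH ▸ hc)
    · rw [e, Subgroup.isComplement'_top_left] at hc
      exact hHne (hSH ▸ hc)
  -- a Sylow subgroup of `T` normalized by `H`
  have hHinf : H ⊓ T = ⊥ := by
    have hd : Nat.card (H ⊓ T : Subgroup G) ∣ p := Subgroup.card_dvd_of_le inf_le_left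
    rcases (Nat.dvd_prime hp).1 hd with h | h
    · exact Subgroup.eq_bot_of_card_eq _ h
    · exact absurd (inf_eq_left.1 (Subgroup.eq_of_le_of_card_ge inf_le_left (h ▸ le_rfl))) hHT
  obtain ⟨q, hq, hqT, hcnt⟩ : ∃ q : ℕ, q.Prime ∧ q ∣ Nat.card T ∧
      ¬ p ∣ Nat.card (Sylow q T) := by
    by_cases hpT : p ∣ Nat.card T
    · exact ⟨p, hp, hpT, not_dvd_card_sylow p T⟩
    · obtain ⟨q, hq, hqd⟩ := Nat.exists_prime_and_dvd (Finite.one_lt_card (α := T)).ne'
      refine ⟨q, hq, hqd, fun h => hpT ?_⟩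
      obtain ⟨S⟩ := Sylow.nonempty (p := q) (G := T)
      haveI : Fact q.Prime := ⟨hq⟩
      exact h.trans (S.card_dvd_index.trans (Subgroup.index_dvd_card _))
  haveI : Fact q.Prime := ⟨hq⟩
  let ψ : H →* MulAut T := (MulAut.conjNormal : G →* MulAut T).comp H.subtype
  letI : MulAction H (Sylow q T) := MulAction.compHom (Sylow q T) ψ
  have hHp : IsPGroup p H := IsPGroup.of_card (n := 1) (by rw [pow_one])
  obtain ⟨Q, hQ⟩ := hHp.nonempty_fixed_point_of_prime_not_dvd_card (Sylow q T) hcnt
  set Q' : Subgroup G := (Q : Subgroup T).map T.subtype with hQ'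
  have hnorm : H ≤ Subgroup.normalizer (Q' : Set G) := by
    have fwd : ∀ h ∈ H, ∀ x ∈ Q', h * x * h⁻¹ ∈ Q' := by
      rintro h hh _ ⟨y, hy, rfl⟩
      have h1 : ψ ⟨h, hh⟩ • y ∈ ψ ⟨h, hh⟩ • (Q : Subgroup T) :=
        Subgroup.smul_mem_pointwise_smul y _ _ hy
      have h2 : ψ ⟨h, hh⟩ • Q = Q := hQ ⟨h, hh⟩
      have h3 : ψ ⟨h, hh⟩ • (Q : Subgroup T) = (Q : Subgroup T) :=
        congrArg (fun S : Sylow q T => (S : Subgroup T)) h2
      rw [h3] at h1
      exact ⟨_, h1, rfl⟩
    intro h hh
    rw [Subgroup.mem_normalizer_iff]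
    exact fun x => ⟨fwd h hh x, fun hx => by
      simpa [mul_assoc] using fwd h⁻¹ (inv_mem hh) _ hx⟩
  have hQne : Q' ≠ ⊥ := by
    rw [hQ', Ne, Subgroup.map_eq_bot_iff_of_injective _ T.subtype_injective]
    intro h
    have := Q.dvd_card_of_dvd_card hqT
    rw [h, Subgroup.card_bot] at this
    exact hq.not_dvd_one this
  have hsup : Q' ⊔ H = ⊤ := by
    refine hmax.2 _ (lt_of_le_of_ne le_sup_right fun h => hQne ?_)
    rw [eq_bot_iff, ← hHinf]
    exact le_inf (le_sup_left.trans h.ge) (Subgroup.map_subtype_le _)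
  apply hTnp q hq
  have hTQ : T ≤ Q' := by
    intro t ht
    have h : t ∈ ((Q' ⊔ H : Subgroup G) : Set G) := hsup ▸ Subgroup.mem_top t
    rw [Subgroup.coe_mul_of_right_le_normalizer_left _ _ hnorm] at h
    obtain ⟨a, ha, b, hb, rfl⟩ := Set.mem_mul.1 h
    have hbT : b ∈ T := by
      simpa using mul_mem (inv_mem ((Subgroup.map_subtype_le _ : Q' ≤ T) ha)) ht
    have hb1 : b ∈ H ⊓ T := ⟨hb, hbT⟩
    rw [hHinf, Subgroup.mem_bot] at hb1
    rwa [hb1, mul_one]
  exact (Q.isPGroup'.map T.subtype).to_le hTQ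

end Cfsg.Agent.RecogA
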