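import Mathlib
import Cfsg.Agent.RecogA.ExtremeStabilizer
import Cfsg.Agent.Lib.MinimalNormal
import Cfsg.Agent.S3495

/-!
Soluble extremely primitive groups: the point stabilizer is `Z_q` extended by a cyclic group of
order dividing `d`, where the degree is `p ^ d` and `d` is the order of `p` modulo `q`.
-/

namespace Cfsg.Agent.RecogA

open MulAction Cfsg.Agent.PermLib

set_option linter.style.haveILetI false

section Ring

variable {R : Type*} [CommRing R] [IsDomain R] {p : ℕ} [Fact p.Prime]

theorem eq_natCast_of_pow_eq (hp : (p : R) = 0) {c : R} (hc : c ^ p = c) : ∃ k : ℕ, (k : R) = c := by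
  classical
  haveI : CharP R p := (CharP.charP_iff_prime_eq_zero Fact.out).2 hp
  by_contra hno
  push Not at hno
  let f : Polynomial R := Polynomial.X ^ p - Polynomial.X
  have hdeg : f.natDegree = p := by
    rw [show f = Polynomial.X ^ p - Polynomial.X from rfl, Polynomial.natDegree_sub_eq_left_of_natDegree_lt]
    · exact Polynomial.natDegree_X_pow p
    · rw [Polynomial.natDegree_X_pow, Polynomial.natDegree_X]
      exact (Fact.out : p.Prime).one_lt
  have hf : f ≠ 0 := fun h => (Fact.out : p.Prime).ne_zero (by rw [← hdeg, h, Polynomial.natDegree_zero])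
  have hroot : ∀ x : R, x ^ p = x → x ∈ f.roots.toFinset := fun x hx => by
    rw [Multiset.mem_toFinset, Polynomial.mem_roots hf]
    simp [f, hx]
  let S : Finset R := insert c (Finset.univ.image fun k : Fin p => ((k : ℕ) : R))
  have hS : S.card = p + 1 := by
    rw [Finset.card_insert_of_notMem, Finset.card_image_of_injective, Finset.card_univ,
      Fintype.card_fin]
    · intro a b hab
      exact Fin.ext (CharP.natCast_injOn_Iio R p a.2 b.2 hab)
    · intro h
      obtain ⟨k, -, hk⟩ := Finset.mem_image.1 h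
      exact hno k hk
  have hsub : S ⊆ f.roots.toFinset := by
    intro x hx
    rcases Finset.mem_insert.1 hx with rfl | h
    · exact hroot _ hc
    · obtain ⟨k, -, rfl⟩ := Finset.mem_image.1 h
      refine hroot _ ?_
      rw [← frobenius_def]
      exact map_natCast (frobenius R p) _
  have := (Finset.card_le_card hsub).trans ((Multiset.toFinset_card_le _).trans f.card_roots')
  omega

/-- An endomorphism sends a root of unity `ζ` with `ζ ^ (p ^ d) = ζ` to some `ζ ^ (p ^ i)`. -/
theorem exists_pow_prime_pow_eq_map (hp : (p : R) = 0) (σ : R →+* R) {ζ : R} {d : ℕ} (hd : 0 < d)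
    (hζ : ζ ^ p ^ d = ζ) : ∃ i < d, σ ζ = ζ ^ p ^ i := by
  classical
  haveI : CharP R p := (CharP.charP_iff_prime_eq_zero Fact.out).2 hp
  let f : Polynomial R := ∏ i ∈ Finset.range d, (Polynomial.X - Polynomial.C (ζ ^ p ^ i))
  have hfrob : f.map (frobenius R p) = f := by
    simp only [f, Polynomial.map_prod, Polynomial.map_sub, Polynomial.map_X, Polynomial.map_C,
      frobenius_def, ← pow_mul, ← pow_succ]
    obtain ⟨e, rfl⟩ : ∃ e, d = e + 1 := ⟨d - 1, by omega⟩
    rw [Finset.prod_range_succ, hζ, Finset.prod_range_succ', pow_zero, pow_one]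
  have hσ : f.map σ = f := by
    ext n
    obtain ⟨k, hk⟩ := eq_natCast_of_pow_eq hp (c := f.coeff n) (by
      have h := congrArg (fun g => Polynomial.coeff g n) hfrob
      simpa [Polynomial.coeff_map, frobenius_def] using h)
    rw [Polynomial.coeff_map, ← hk, map_natCast]
  have h0 : f.eval ζ = 0 := by
    simp only [f, Polynomial.eval_prod]
    exact Finset.prod_eq_zero (Finset.mem_range.2 hd) (by simp)
  have h1 : f.eval (σ ζ) = 0 := by
    rw [← hσ, Polynomial.eval_map, Polynomial.eval₂_at_apply, h0, map_zero]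
  simp only [f, Polynomial.eval_prod, Finset.prod_eq_zero_iff, Finset.mem_range,
    Polynomial.eval_sub, Polynomial.eval_X, Polynomial.eval_C, sub_eq_zero] at h1
  exact h1

theorem le_of_pow_prime_pow_eq [Finite R] (hp : (p : R) = 0) {d i : ℕ} (hi : 0 < i)
    (hcard : Nat.card R = p ^ d) (h : ∀ x : R, x ^ p ^ i = x) : d ≤ i := by
  classical
  haveI := Fintype.ofFinite R
  let f : Polynomial R := Polynomial.X ^ p ^ i - Polynomial.X
  have h1 : 1 < p ^ i := Nat.one_lt_pow hi.ne' (Fact.out : p.Prime).one_lt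
  have hdeg : f.natDegree = p ^ i := by
    rw [show f = Polynomial.X ^ p ^ i - Polynomial.X from rfl,
      Polynomial.natDegree_sub_eq_left_of_natDegree_lt]
    · exact Polynomial.natDegree_X_pow _
    · rw [Polynomial.natDegree_X_pow, Polynomial.natDegree_X]
      exact h1
  have hf : f ≠ 0 := fun h => by rw [h, Polynomial.natDegree_zero] at hdeg; omega
  have hsub : (Finset.univ : Finset R) ⊆ f.roots.toFinset := fun x _ => by
    rw [Multiset.mem_toFinset, Polynomial.mem_roots hf]
    simp [f, h x]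
  have := (Finset.card_le_card hsub).trans ((Multiset.toFinset_card_le _).trans f.card_roots')
  rw [hdeg, Finset.card_univ, ← Nat.card_eq_fintype_card, hcard] at this
  exact (Nat.pow_le_pow_iff_right (Fact.out : p.Prime).one_lt).1 this

end Ring

/-- A faithful irreducible abelian group of automorphisms `T` of an elementary abelian group `M`,
normalized by a group `H` of automorphisms. -/
theorem irreducible_abelian_field {M : Type*} [AddCommGroup M] [Finite M] [Nontrivial M] {p d : ℕ}
    [Fact p.Prime] (hpM : ∀ x : M, p • x = 0) (hcard : Nat.card M = p ^ d) {H : Type*} [Group H]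
    (θ : H →* AddMonoid.End M) (T : Subgroup H) [T.Normal]
    (hab : ∀ s ∈ T, ∀ t ∈ T, s * t = t * s) (hinj : ∀ t ∈ T, θ t = 1 → t = 1)
    (hirr : ∀ L : AddSubgroup M, (∀ t ∈ T, ∀ x ∈ L, θ t x ∈ L) → L = ⊥ ∨ L = ⊤) :
    IsCyclic T ∧
      (∀ i : ℕ, 0 < i → (∀ t ∈ T, t ^ p ^ i = t) → d ≤ i) ∧
      (∀ t ∈ T, t ^ p ^ d = t) ∧
      ∀ (h : H) (t : T), ∃ i < d, h * (t : H) * h⁻¹ = (t : H) ^ p ^ i := by
  classical
  let S : Set (AddMonoid.End M) := θ '' (T : Set H)
  let R : Subring (AddMonoid.End M) := Subring.closure S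
  have hSc : ∀ x ∈ S, ∀ y ∈ S, x * y = y * x := by
    rintro _ ⟨s, hs, rfl⟩ _ ⟨t, ht, rfl⟩
    rw [← map_mul, ← map_mul, hab s hs t ht]
  letI : CommRing R := Subring.closureCommRingOfComm hSc
  have hTR : ∀ t ∈ T, θ t ∈ R := fun t ht => Subring.subset_closure ⟨t, ht, rfl⟩
  have hcomm : ∀ r ∈ R, ∀ t ∈ T, r * θ t = θ t * r := fun r hr t ht =>
    congrArg Subtype.val (mul_comm (⟨r, hr⟩ : R) ⟨θ t, hTR t ht⟩)
  have hker : ∀ r ∈ R, ∀ x : M, x ≠ 0 → r x = 0 → r = 0 := by
    intro r hr x hx hrx
    rcases hirr (r : AddMonoid.End M).ker (fun t ht y hy => by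
      show (r * θ t) y = 0
      rw [hcomm r hr t ht]
      show θ t (r y) = 0
      rw [show r y = 0 from hy, map_zero]) with h | h
    · have hxk : x ∈ (r : AddMonoid.End M).ker := hrx
      rw [h, AddSubgroup.mem_bot] at hxk
      exact absurd hxk hx
    · exact AddMonoidHom.ext fun y => AddMonoidHom.mem_ker.1 (h ▸ AddSubgroup.mem_top y)
  obtain ⟨v, hv⟩ := exists_ne (0 : M)
  let ev : R →+ M :=
    AddMonoidHom.mk' (fun r => (r : AddMonoid.End M) v) fun a b => rfl
  have hev : Function.Bijective ev := by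
    refine ⟨(injective_iff_map_eq_zero ev).2 fun r hr => Subtype.ext (hker r r.2 v hv hr), ?_⟩
    have htop : ev.range = ⊤ := by
      refine (hirr ev.range fun t ht x hx => ?_).resolve_left fun h => hv ?_
      · obtain ⟨r, rfl⟩ := hx
        exact ⟨⟨θ t, hTR t ht⟩ * r, rfl⟩
      · have h1 : v ∈ ev.range := ⟨1, rfl⟩
        rwa [h, AddSubgroup.mem_bot] at h1
    exact AddMonoidHom.range_eq_top.1 htop
  haveI : Finite R := Finite.of_injective ev hev.1
  have hcardR : Nat.card R = p ^ d := (Nat.card_eq_of_bijective ev hev).trans hcard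
  haveI : Nontrivial R := hev.2.nontrivial
  haveI : NoZeroDivisors R := ⟨fun {a b} hab' => by
    by_contra hc
    push Not at hc
    have hbv : ev b ≠ 0 := fun h => hc.2 (hev.1 (h.trans (map_zero ev).symm))
    apply hc.1
    refine Subtype.ext (hker a a.2 (ev b) hbv ?_)
    show ev (a * b) = 0
    rw [hab', map_zero]⟩
  haveI : IsDomain R := NoZeroDivisors.to_isDomain R
  have hpR : (p : R) = 0 := Subtype.ext (AddMonoidHom.ext fun x => by
    show (((p : R) : AddMonoid.End M)) x = 0
    rw [show ((p : R) : AddMonoid.End M) = (p : AddMonoid.End M) from map_natCast R.subtype p]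
    exact hpM x)
  haveI : CharP R p := (CharP.charP_iff_prime_eq_zero Fact.out).2 hpR
  let f : T →* R :=
    { toFun := fun t => ⟨θ (t : H), hTR t t.2⟩
      map_one' := Subtype.ext (map_one θ)
      map_mul' := fun a b => Subtype.ext (map_mul θ (a : H) (b : H)) }
  have hf : Function.Injective f := (injective_iff_map_eq_one f).2 fun t ht =>
    Subtype.ext (hinj t t.2 (congrArg Subtype.val ht))
  have hfpow : ∀ (t : T) (k : ℕ), f t ^ k = f t → (t : H) ^ k = t := fun t k h =>
    congrArg Subtype.val (hf (show f (t ^ k) = f t by rw [map_pow]; exact h))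
  have hRall : ∀ i : ℕ, (∀ t ∈ T, t ^ p ^ i = t) → ∀ x : R, x ^ p ^ i = x := by
    intro i hi x
    let Q : Subring R :=
      { carrier := {y | y ^ p ^ i = y}
        zero_mem' := zero_pow (pow_ne_zero i (Fact.out : p.Prime).ne_zero)
        one_mem' := one_pow _
        add_mem' := fun {a b} ha hb => by
          show (a + b) ^ p ^ i = a + b
          rw [add_pow_char_pow, ha, hb]
        mul_mem' := fun {a b} ha hb => by
          show (a * b) ^ p ^ i = a * b
          rw [mul_pow, ha, hb]
        neg_mem' := fun {a} ha => by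
          show (-a) ^ p ^ i = -a
          have h := sub_pow_char_pow (0 : R) a (p := p) (n := i)
          rw [zero_pow (pow_ne_zero i (Fact.out : p.Prime).ne_zero), zero_sub, zero_sub, ha] at h
          exact h }
    have hle : R ≤ Q.map R.subtype := by
      refine Subring.closure_le.2 ?_
      rintro _ ⟨t, ht, rfl⟩
      refine ⟨f ⟨t, ht⟩, ?_, rfl⟩
      show f ⟨t, ht⟩ ^ p ^ i = f ⟨t, ht⟩
      rw [← map_pow]
      exact congrArg f (Subtype.ext (hi t ht))
    obtain ⟨y, hy, hyx⟩ := hle x.2
    rw [show x = y from Subtype.ext hyx.symm]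
    exact hy
  haveI : Fintype R := Fintype.ofFinite R
  have hζ : ∀ t ∈ T, t ^ p ^ d = t := fun t ht => by
    refine hfpow ⟨t, ht⟩ _ ?_
    letI := Fintype.fieldOfDomain R
    rw [← hcardR, Nat.card_eq_fintype_card]
    exact FiniteField.pow_card _
  haveI : Finite T := Finite.of_injective f hf
  refine ⟨isCyclic_of_subgroup_isDomain f hf, fun i hi h =>
    le_of_pow_prime_pow_eq hpR hi hcardR (hRall i h), hζ, fun h t => ?_⟩
  have hd : 0 < d := by
    rcases Nat.eq_zero_or_pos d with h0 | h0
    · rw [h0, pow_zero] at hcard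
      exact absurd hcard Finite.one_lt_card.ne'
    · exact h0
  -- conjugation by `h`
  have hθ : ∀ k : H, θ k * θ k⁻¹ = 1 := fun k => by rw [← map_mul, mul_inv_cancel, map_one]
  have hθ' : θ h⁻¹ * θ h = 1 := by simpa using hθ h⁻¹
  have hstab : ∀ r ∈ R, θ h * r * θ h⁻¹ ∈ R := by
    intro r hr
    induction hr using Subring.closure_induction with
    | mem x hx =>
      obtain ⟨s, hs, rfl⟩ := hx
      rw [← map_mul, ← map_mul]
      exact hTR _ ((inferInstance : T.Normal).conj_mem s hs h)
    | zero => rw [mul_zero, zero_mul]; exact zero_mem R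
    | one => rw [mul_one, hθ]; exact one_mem R
    | add x y _ _ hx hy => rw [mul_add, add_mul]; exact add_mem hx hy
    | neg x _ hx => rw [mul_neg, neg_mul]; exact neg_mem hx
    | mul x y _ _ hx hy =>
      have e : θ h * (x * y) * θ h⁻¹ = θ h * x * θ h⁻¹ * (θ h * y * θ h⁻¹) := by
        calc θ h * (x * y) * θ h⁻¹ = θ h * x * 1 * (y * θ h⁻¹) := by noncomm_ring
          _ = _ := by rw [← hθ']; noncomm_ring
      rw [e]
      exact mul_mem hx hy
  let σ : R →+* R :=
    { toFun := fun r => ⟨θ h * (r : AddMonoid.End M) * θ h⁻¹, hstab r r.2⟩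
      map_one' := Subtype.ext (by
        show θ h * 1 * θ h⁻¹ = 1
        rw [mul_one, hθ])
      map_mul' := fun a b => Subtype.ext (by
        show θ h * ((a : AddMonoid.End M) * b) * θ h⁻¹ =
          θ h * a * θ h⁻¹ * (θ h * b * θ h⁻¹)
        calc θ h * ((a : AddMonoid.End M) * b) * θ h⁻¹ = θ h * a * 1 * (b * θ h⁻¹) := by
              noncomm_ring
          _ = _ := by rw [← hθ']; noncomm_ring)
      map_zero' := Subtype.ext (by
        show θ h * 0 * θ h⁻¹ = 0
        rw [mul_zero, zero_mul])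
      map_add' := fun a b => Subtype.ext (by
        show θ h * ((a : AddMonoid.End M) + b) * θ h⁻¹ = θ h * a * θ h⁻¹ + θ h * b * θ h⁻¹
        rw [mul_add, add_mul]) }
  have hζt : f t ^ p ^ d = f t := by
    rw [← map_pow]
    exact congrArg f (Subtype.ext (hζ t t.2))
  obtain ⟨i, hi, hiσ⟩ := exists_pow_prime_pow_eq_map hpR σ hd hζt
  refine ⟨i, hi, ?_⟩
  have hmem : h * (t : H) * h⁻¹ ∈ T := (inferInstance : T.Normal).conj_mem _ t.2 h
  have e : f ⟨_, hmem⟩ = f (t ^ p ^ i) := by
    rw [map_pow, ← hiσ]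
    refine Subtype.ext ?_
    show θ (h * (t : H) * h⁻¹) = θ h * θ (t : H) * θ h⁻¹
    rw [map_mul, map_mul]
  exact congrArg Subtype.val (hf e)

/-- The extension of `T` of order `q` by powers of the automorphism `t ↦ t ^ p`. -/
theorem cyclic_extension_facts {H : Type*} [Group H] [Finite H] (T : Subgroup H) [hT : T.Normal]
    {p q d : ℕ} (hTq : Nat.card T = q) (hq : q.Prime) (hself : ∀ h : H, (∀ t ∈ T, h * t = t * h) → h ∈ T)
    (hd : 0 < d) (hdpow : ∀ t ∈ T, t ^ p ^ d = t)
    (hconj : ∀ (h : H) (t : T), ∃ i < d, h * (t : H) * h⁻¹ = (t : H) ^ p ^ i) :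
    (∃ h : H, ⊤ = T ⊔ Subgroup.zpowers h) ∧ Nat.card H ∣ q * d := by
  classical
  haveI : Fact q.Prime := ⟨hq⟩
  haveI : IsCyclic T := isCyclic_of_prime_card hTq
  obtain ⟨t0, ht0⟩ := IsCyclic.exists_zpow_surjective (G := T)
  letI : CommGroup T := IsCyclic.commGroup
  have hinv : ∀ x : T, (powMonoidHom (p ^ (d - 1)) : T →* T) ((powMonoidHom p : T →* T) x) = x := by
    intro x
    show (x ^ p) ^ p ^ (d - 1) = x
    rw [← pow_mul, ← pow_succ', show d - 1 + 1 = d by omega]
    exact Subtype.ext (hdpow x x.2)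
  have hinv' : ∀ x : T, (powMonoidHom p : T →* T) ((powMonoidHom (p ^ (d - 1)) : T →* T) x) = x := by
    intro x
    show (x ^ p ^ (d - 1)) ^ p = x
    rw [← pow_mul, ← pow_succ, show d - 1 + 1 = d by omega]
    exact Subtype.ext (hdpow x x.2)
  let π : MulAut T :=
    { toFun := (powMonoidHom p : T →* T)
      invFun := (powMonoidHom (p ^ (d - 1)) : T →* T)
      left_inv := hinv
      right_inv := hinv'
      map_mul' := map_mul _ }
  have hπ : ∀ (i : ℕ) (x : T), (π ^ i) x = x ^ p ^ i := by
    intro i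
    induction i with
    | zero => intro x; simp
    | succ i ih =>
      intro x
      rw [pow_succ, MulAut.mul_apply, ih]
      show (x ^ p) ^ p ^ i = _
      rw [← pow_mul, ← pow_succ']
  let φ : H →* MulAut T := MulAut.conjNormal
  have hker : φ.ker = T := by
    ext h
    rw [MonoidHom.mem_ker]
    constructor
    · intro hh
      refine hself h fun t ht => ?_
      have e : h * t * h⁻¹ = t := congrArg Subtype.val (DFunLike.congr_fun hh (⟨t, ht⟩ : T))
      calc h * t = h * t * h⁻¹ * h := by group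
        _ = t * h := by rw [e]
    · intro hh
      ext x
      show h * (x : H) * h⁻¹ = x
      have e : h * (x : H) = (x : H) * h := congrArg Subtype.val (mul_comm (⟨h, hh⟩ : T) x)
      rw [e, mul_inv_cancel_right]
  have hrange : φ.range ≤ Subgroup.zpowers π := by
    rintro _ ⟨h, rfl⟩
    obtain ⟨i, -, hi⟩ := hconj h t0
    refine Subgroup.mem_zpowers_iff.2 ⟨(i : ℤ), ?_⟩
    rw [zpow_natCast]
    refine MulEquiv.ext fun x => ?_
    obtain ⟨k, rfl⟩ := ht0 x
    rw [map_zpow, map_zpow, hπ]
    congr 1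
    exact Subtype.ext hi.symm
  have hπd : π ^ d = 1 := MulEquiv.ext fun x => by
    rw [hπ]
    exact Subtype.ext (hdpow x x.2)
  refine ⟨?_, ?_⟩
  · haveI : IsCyclic φ.range :=
      isCyclic_of_injective (Subgroup.inclusion hrange) (Subgroup.inclusion_injective hrange)
    obtain ⟨⟨_, h, rfl⟩, hgen⟩ := IsCyclic.exists_zpow_surjective (G := φ.range)
    refine ⟨h, eq_comm.1 (eq_top_iff.2 fun g _ => ?_)⟩
    obtain ⟨k, hk⟩ := hgen ⟨φ g, g, rfl⟩
    have hk' : φ h ^ k = φ g := congrArg Subtype.val hk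
    have hgT : g * (h ^ k)⁻¹ ∈ T := by
      rw [← hker, MonoidHom.mem_ker, map_mul, map_inv, map_zpow, hk', mul_inv_cancel]
    simpa using Subgroup.mul_mem_sup hgT (Subgroup.mem_zpowers_iff.2 ⟨k, rfl⟩ :
      h ^ k ∈ Subgroup.zpowers h)
  · rw [← φ.ker.card_mul_index, Subgroup.index_ker, hker, hTq]
    refine Nat.mul_dvd_mul_left q ((Subgroup.card_dvd_of_le hrange).trans ?_)
    rw [Nat.card_zpowers]
    exact orderOf_dvd_of_pow_eq_one hπd

theorem soluble_extreme_facts {G : Type*} [Group G] [Finite G] {Ω : Type*} [Fintype Ω] [MulAction G Ω]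
    [FaithfulSMul G Ω] [Group.IsSolvable G] {p d : ℕ} (hp : p.Prime)
    (hcard : Fintype.card Ω = p ^ d) (hprim : IsPreprimitive G Ω)
    (hH : ∀ α : Ω, stabilizer G α ≠ ⊥)
    (hep : ∀ α ω : Ω, IsPreprimitive (stabilizer G α) (orbit (stabilizer G α) ω)) (α : Ω) :
    ∃ q : ℕ, q.Prime ∧ (∀ ω : Ω, ω ≠ α → Nat.card (orbit (stabilizer G α) ω) = q) ∧
      q ∣ p ^ d - 1 ∧ (∀ i : ℕ, 0 < i → i < d → ¬ q ∣ p ^ i - 1) ∧
      ∃ T : Subgroup G, T ≤ stabilizer G α ∧
        stabilizer G α ≤ Subgroup.normalizer (T : Set G) ∧ Nat.card T = q ∧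
        (∃ h : G, stabilizer G α = T ⊔ Subgroup.zpowers h) ∧
        Nat.card (stabilizer G α) ∣ q * d := by
  classical
  haveI := hprim
  haveI : IsPretransitive G Ω := hprim.toIsPretransitive
  haveI : Fact p.Prime := ⟨hp⟩
  obtain ⟨ω0, hω0⟩ := exists_ne_of_stabilizer_ne_bot (hH α)
  have hd : 0 < d := by
    rcases Nat.eq_zero_or_pos d with h | h
    · rw [h, pow_zero] at hcard
      exact absurd ((Fintype.card_le_one_iff.1 hcard.le) ω0 α) hω0
    · exact h
  haveI : Nontrivial G := by
    obtain ⟨g, hg⟩ := exists_smul_eq G α ω0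
    exact nontrivial_of_ne g 1 fun e => hω0 (by rw [← hg, e, one_smul])
  obtain ⟨N, hNn, hNne, hNmin⟩ := Cfsg.Agent.MinNormal.exists_minimal_normal (G := G)
  haveI := hNn
  have hNc : IsMulCommutative N := Cfsg.Agent.MinNormal.isMulCommutative N (fun L hL hle => hNmin L hL hle)
  haveI : IsPretransitive N Ω := isPretransitive_of_normal_ne_bot hNne
  have hNreg : ∀ ω : Ω, stabilizer N ω = ⊥ := stabilizer_eq_bot_of_isMulCommutative hNc
  have hNcard : Nat.card N = p ^ d := by
    rw [card_eq_of_regular (hNreg α), Nat.card_eq_fintype_card, hcard]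
  have hNexp : ∀ n ∈ N, n ^ p = 1 := by
    let P : Subgroup G :=
      { carrier := {x | x ∈ N ∧ x ^ p = 1}
        one_mem' := ⟨one_mem _, one_pow _⟩
        mul_mem' := fun {a b} ha hb => ⟨mul_mem ha.1 hb.1, by
          rw [(show Commute a b from congrArg Subtype.val
            (hNc.is_comm.comm (⟨a, ha.1⟩ : N) ⟨b, hb.1⟩)).mul_pow, ha.2, hb.2, one_mul]⟩
        inv_mem' := fun {a} ha => ⟨inv_mem ha.1, by rw [inv_pow, ha.2, inv_one]⟩ }
    have hPn : P.Normal := ⟨fun x hx g => ⟨hNn.conj_mem x hx.1 g, by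
      rw [conj_pow, hx.2]; group⟩⟩
    rcases hNmin P hPn (fun x hx => hx.1) with h | h
    · exfalso
      obtain ⟨z, hz⟩ := exists_prime_orderOf_dvd_card' (G := N) p
        (hNcard ▸ dvd_pow_self p hd.ne')
      have h1 : (z : G) ∈ P := ⟨z.2, by
        rw [← hz, ← Subgroup.orderOf_coe]; exact pow_orderOf_eq_one _⟩
      rw [h, Subgroup.mem_bot] at h1
      rw [show z = 1 from Subtype.ext h1, orderOf_one] at hz
      exact hp.ne_one hz.symm
    · intro n hn
      exact (h.symm ▸ hn : n ∈ P).2
  -- the subgroup `T`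
  have hT : ∃ (T : Subgroup G) (q e : ℕ), q.Prime ∧ T ≠ ⊥ ∧ T ≤ stabilizer G α ∧
      stabilizer G α ≤ Subgroup.normalizer (T : Set G) ∧ (∀ a ∈ T, ∀ b ∈ T, a * b = b * a) ∧
      Nat.card T = q ^ e ∧ (∀ a ∈ T, a ^ q = 1) := by
    by_cases hpr : (Nat.card (stabilizer G α)).Prime
    · haveI : Fact (Nat.card (stabilizer G α)).Prime := ⟨hpr⟩
      haveI : IsCyclic (stabilizer G α) := isCyclic_of_prime_card rfl
      letI : CommGroup (stabilizer G α) := IsCyclic.commGroup
      refine ⟨stabilizer G α, _, 1, hpr, hH α, le_rfl, Subgroup.le_normalizer,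
        fun a ha b hb => congrArg Subtype.val (mul_comm (⟨a, ha⟩ : stabilizer G α) ⟨b, hb⟩),
        (pow_one _).symm, fun a ha => ?_⟩
      exact congrArg Subtype.val (pow_card_eq_one' (x := (⟨a, ha⟩ : stabilizer G α)))
    · haveI : Nontrivial (stabilizer G α) := (Subgroup.nontrivial_iff_ne_bot _).2 (hH α)
      haveI : Group.IsSolvable (stabilizer G α) := inferInstance
      obtain ⟨A, -, hA, hAle, hAn, hab, q, e, hq, -, hAcard, hexp⟩ :=
        fitting_facts hprim hH hep (α := α) Cfsg.Agent.Cores.fittingSubgroup_ne_bot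
      exact ⟨A, q, e, hq, hA, hAle, hAn, hab, hAcard, hexp⟩
  obtain ⟨T, q, e, hq, hTne, hTle, hTn, hTab, hTcard, hTexp⟩ := hT
  haveI : Fact q.Prime := ⟨hq⟩
  have hfree : ∀ a ∈ T, ∀ ω : Ω, ω ≠ α → a • ω = ω → a = 1 := fun a ha ω hω hfix =>
    eq_one_of_commute_normal hprim hH hep hTne hTle hTn (hTle ha) (fun b hb => hTab a ha b hb) hω hfix
  -- pass to endomorphisms of `N`
  letI : CommGroup N := { (inferInstance : Group N) with mul_comm := hNc.is_comm.comm }
  haveI : Finite (Additive N) := Finite.of_equiv N Additive.ofMul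
  haveI : Nontrivial N := (Subgroup.nontrivial_iff_ne_bot N).2 hNne
  haveI : Nontrivial (Additive N) := Additive.ofMul.injective.nontrivial
  set H := stabilizer G α with hHdef
  let θ : H →* AddMonoid.End (Additive N) :=
    { toFun := fun h => MonoidHom.toAdditive (MulAut.conjNormal (h : G) : MulAut N).toMonoidHom
      map_one' := by rw [Subgroup.coe_one, map_one]; rfl
      map_mul' := fun a b => by rw [Subgroup.coe_mul, map_mul]; rfl }
  let T' : Subgroup H := T.subgroupOf H
  haveI : T'.Normal := Subgroup.normal_subgroupOf_of_le_normalizer hTn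
  have hirrN := (Cfsg.Agent.S3495.result hprim hH hep N hNc p hp hNexp inferInstance hNreg α T hTne
    hTle hTn).2
  obtain ⟨hcyc, hlow, hpd, hconj⟩ := irreducible_abelian_field (M := Additive N) (p := p) (d := d)
    (fun x => by
      show Additive.ofMul ((Additive.toMul x) ^ p) = 0
      rw [show (Additive.toMul x) ^ p = 1 from
        Subtype.ext (by simpa using hNexp _ (Additive.toMul x).2)]
      rfl)
    ((Nat.card_congr Additive.toMul).trans hNcard) θ T'
    (fun s hs t ht => Subtype.ext (hTab _ hs _ ht))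
    (by
      intro t ht h1
      obtain ⟨n, hn⟩ := exists_ne (1 : N)
      have hnα : (n : G) • α ≠ α := fun e =>
        hn ((Subgroup.eq_bot_iff_forall _).1 (hNreg α) n e)
      refine Subtype.ext (hfree t ht _ hnα ?_)
      have h2 : (t : G) * n * (t : G)⁻¹ = n :=
        congrArg Subtype.val (congrArg Additive.toMul (DFunLike.congr_fun h1 (Additive.ofMul n)))
      calc (t : G) • (n : G) • α = ((t : G) * n * (t : G)⁻¹) • α := by
            rw [mul_smul, mul_smul, mem_stabilizer_iff.1 (inv_mem (show (t : G) ∈ stabilizer G α from t.2))]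
        _ = (n : G) • α := by rw [h2])
    (by
      intro L hL
      let L' : Subgroup N :=
        { carrier := {n | Additive.ofMul n ∈ L}
          one_mem' := L.zero_mem
          mul_mem' := fun ha hb => L.add_mem ha hb
          inv_mem' := fun ha => L.neg_mem ha }
      have hL' : T ≤ Subgroup.normalizer (L'.map N.subtype : Set G) := by
        have fwd : ∀ t ∈ T, ∀ x ∈ L'.map N.subtype, t * x * t⁻¹ ∈ L'.map N.subtype := by
          rintro t ht _ ⟨n, hn, rfl⟩
          exact ⟨MulAut.conjNormal t n, hL ⟨t, hTle ht⟩ ht (Additive.ofMul n) hn, rfl⟩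
        intro t ht
        rw [Subgroup.mem_normalizer_iff]
        exact fun x => ⟨fwd t ht x, fun hx => by
          simpa [mul_assoc] using fwd t⁻¹ (inv_mem ht) _ hx⟩
      rcases hirrN _ (Subgroup.map_subtype_le _) hL' with h | h
      · left
        rw [eq_bot_iff]
        intro x hx
        have h1 : ((Additive.toMul x : N) : G) ∈ L'.map N.subtype := ⟨Additive.toMul x, hx, rfl⟩
        rw [h, Subgroup.mem_bot] at h1
        rw [AddSubgroup.mem_bot]
        exact Additive.toMul.injective (Subtype.ext h1)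
      · right
        rw [eq_top_iff]
        intro x _
        have h1 : ((Additive.toMul x : N) : G) ∈ L'.map N.subtype := by
          rw [h]
          exact (Additive.toMul x).2
        obtain ⟨n, hn, hnx⟩ := h1
        rw [show x = Additive.ofMul n from Additive.toMul.injective (Subtype.ext hnx.symm)]
        exact hn)
  have hcT : Nat.card T' = q ^ e :=
    (Nat.card_congr (Subgroup.subgroupOfEquivOfLe hTle).toEquiv).trans hTcard
  -- `T` has order `q`
  have hTq : Nat.card T' = q := by
    obtain ⟨g, hg⟩ := hcyc.exists_ofOrder_eq_natCard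
    have h1 : Nat.card T' ∣ q := by
      rw [← hg]
      exact orderOf_dvd_of_pow_eq_one (Subtype.ext (Subtype.ext (by simpa using hTexp _ g.2)))
    rcases (Nat.dvd_prime hq).1 h1 with h | h
    · exfalso
      exact hTne (Subgroup.eq_bot_of_card_eq _ (by
        rw [hTcard, ← hcT, h]))
    · exact h
  have hTqG : Nat.card T = q := by rw [hTcard, ← hcT, hTq]
  have hself : ∀ h : H, (∀ t ∈ T', h * t = t * h) → h ∈ T' := fun h hh =>
    mem_of_commute_normal hprim hH hep hTne hTle hTn hTab h.2 fun a ha =>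
      congrArg Subtype.val (hh ⟨a, hTle ha⟩ ha)
  obtain ⟨⟨h, hsup⟩, hdvd⟩ := cyclic_extension_facts T' hTq hq hself hd hpd hconj
  refine ⟨q, hq, fun ω hω => ?_, ?_, ?_, T, hTle, hTn, hTqG, ⟨h, ?_⟩, hdvd⟩
  · rw [card_orbit_eq_card hprim hH hep hTne hTle hTn hTab hω, hTqG]
  · have := card_dvd_card_sub_one hTle hfree
    rwa [hTqG, Nat.card_eq_fintype_card, hcard] at this
  · intro i hi hid hdiv
    refine not_le.2 hid (hlow i hi fun t ht => ?_)
    obtain ⟨k, hk⟩ := hdiv
    have h1 : 1 ≤ p ^ i := Nat.one_le_pow _ _ hp.pos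
    rw [show p ^ i = q * k + 1 by omega, pow_succ, pow_mul,
      show t ^ q = 1 from Subtype.ext (hTexp _ ht), one_pow, one_mul]
  · have h2 := congrArg (Subgroup.map H.subtype) hsup
    rw [Subgroup.map_sup, ← MonoidHom.range_eq_map, Subgroup.range_subtype,
      Subgroup.subgroupOf_map_subtype, inf_eq_left.2 hTle, MonoidHom.map_zpowers] at h2
    exact h2

end Cfsg.Agent.RecogA
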