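import Mathlib

/-!
Conjugacy classes of fixed-point-free permutations of prime order.
-/

namespace Cfsg.Agent.RecogA

open Equiv

theorem card_derangement_classes_prime_order (n : ℕ) :
    Nat.card {c : ConjClasses (Perm (Fin n)) // ∃ g : Perm (Fin n), ConjClasses.mk g = c ∧
      (orderOf g).Prime ∧ ∀ i : Fin n, g i ≠ i} = n.primeFactors.card := by
  classical
  rcases Nat.eq_zero_or_pos n with rfl | hn
  · rw [Nat.primeFactors_zero, Finset.card_empty, Nat.card_eq_zero]
    refine Or.inl ⟨fun ⟨_, g, _, hg, _⟩ => ?_⟩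
    rw [show g = 1 from Subsingleton.elim _ _, orderOf_one] at hg
    exact Nat.not_prime_one hg
  have hcyc : ∀ g : Perm (Fin n), (orderOf g).Prime → (∀ i, g i ≠ i) →
      orderOf g ∈ n.primeFactors ∧
        g.cycleType = Multiset.replicate (n / orderOf g) (orderOf g) := by
    intro g hg hfree
    obtain ⟨k, hk⟩ := Perm.cycleType_prime_order hg
    have hsupp : g.support = Finset.univ := Finset.eq_univ_iff_forall.2 fun i =>
      Perm.mem_support.2 (hfree i)
    have hsum := g.sum_cycleType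
    rw [hsupp, hk, Multiset.sum_replicate, Finset.card_univ, Fintype.card_fin, smul_eq_mul] at hsum
    refine ⟨Nat.mem_primeFactors.2 ⟨hg, ⟨k + 1, by rw [mul_comm]; exact hsum.symm⟩, hn.ne'⟩, ?_⟩
    rw [hk, show n / orderOf g = k + 1 from Nat.div_eq_of_eq_mul_left hg.pos hsum.symm]
  have hmk : ∀ p ∈ n.primeFactors, ∃ g : Perm (Fin n), orderOf g = p ∧ (∀ i, g i ≠ i) := by
    intro p hp
    obtain ⟨hpp, hdvd, -⟩ := Nat.mem_primeFactors.1 hp
    obtain ⟨g, hg⟩ := (Perm.exists_with_cycleType_iff (Fin n)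
      (m := Multiset.replicate (n / p) p)).2 ⟨by
        rw [Multiset.sum_replicate, Fintype.card_fin, smul_eq_mul, Nat.div_mul_cancel hdvd],
        fun a ha => by rw [Multiset.eq_of_mem_replicate ha]; exact hpp.two_le⟩
    refine ⟨g, ?_, fun i => ?_⟩
    · rw [← Perm.lcm_cycleType, hg]
      refine Nat.dvd_antisymm (Multiset.lcm_dvd.2 fun b hb => ?_) (Multiset.dvd_lcm ?_)
      · rw [Multiset.eq_of_mem_replicate hb]
      · exact Multiset.mem_replicate.2
          ⟨(Nat.div_pos (Nat.le_of_dvd hn hdvd) hpp.pos).ne', rfl⟩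
    · have hsum := g.sum_cycleType
      rw [hg, Multiset.sum_replicate, smul_eq_mul, Nat.div_mul_cancel hdvd] at hsum
      have huniv : g.support = Finset.univ :=
        Finset.eq_univ_of_card _ (by rw [← hsum, Fintype.card_fin])
      exact Perm.mem_support.1 (huniv ▸ Finset.mem_univ i)
  choose f hf1 hf2 using hmk
  rw [← Nat.card_eq_finsetCard]
  refine (Nat.card_eq_of_bijective (fun p : n.primeFactors =>
    (⟨ConjClasses.mk (f p p.2), _, rfl, by rw [hf1]; exact Nat.prime_of_mem_primeFactors p.2,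
      hf2 p p.2⟩ : {c : ConjClasses (Perm (Fin n)) // ∃ g : Perm (Fin n), ConjClasses.mk g = c ∧
        (orderOf g).Prime ∧ ∀ i : Fin n, g i ≠ i})) ⟨?_, ?_⟩).symm
  · intro p q h
    have h' := ConjClasses.mk_eq_mk_iff_isConj.1 (congrArg Subtype.val h)
    obtain ⟨c, hc⟩ := isConj_iff.1 h'
    apply Subtype.ext
    rw [← hf1 p p.2, ← hf1 q q.2, ← hc]
    exact ((MulAut.conj c).orderOf_eq _).symm
  · rintro ⟨_, g, rfl, hg, hfree⟩
    obtain ⟨hmem, hct⟩ := hcyc g hg hfree
    refine ⟨⟨_, hmem⟩, Subtype.ext (ConjClasses.mk_eq_mk_iff_isConj.2 ?_)⟩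
    rw [Perm.isConj_iff_cycleType_eq,
      (hcyc (f _ hmem) (by rw [hf1]; exact hg) (hf2 _ hmem)).2, hct, hf1]

end Cfsg.Agent.RecogA
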